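import Cfsg.Agent.Lib.DoublyPrimSq.Local

/-!
The case in which the regular group of order `p` on each block is normalised by the kernel.
-/

set_option autoImplicit false
set_option linter.unusedSectionVars false

namespace Cfsg.Agent.Lib.DoublyPrimSq

open MulAction

variable {p : ℕ} {M Y W : Type*} [Group M] [Finite M] [MulAction M Y] [FaithfulSMul M Y] [Finite Y]
  [MulAction M W] [Finite W] {β : Y → W} {b : Y} {P : Subgroup M} {q : M}

theorem conj_pow_iter {x : M} {i : ℤ} (h : x * q * x⁻¹ = q ^ i) (n : ℕ) :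
    x ^ n * q * (x ^ n)⁻¹ = q ^ (i ^ n) := by
  induction n with
  | zero => simp
  | succ n ih =>
    rw [pow_succ', pow_succ i n, mul_comm (i ^ n) i, zpow_mul, ← h]
    calc x * x ^ n * q * (x * x ^ n)⁻¹ = x * (x ^ n * q * (x ^ n)⁻¹) * x⁻¹ := by group
      _ = x * q ^ (i ^ n) * x⁻¹ := by rw [ih]
      _ = (x * q * x⁻¹) ^ (i ^ n) := (conj_zpow ..).symm

theorem q_normal (hS : Setup p (M := M) β b) (hD : SylData p P q W)
    (hQ : ∀ k ∈ kerW M W, k * q * k⁻¹ ∈ Subgroup.zpowers q) (m : M) :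
    m * q * m⁻¹ ∈ Subgroup.zpowers q := by
  have := hS.fact
  set x := m * q * m⁻¹ with hx
  have hxK : x ∈ kerW M W := kerW_conj hD.qK m
  have hxp : x ^ p = 1 := by rw [hx, conj_pow, hD.pow_p, mul_one, mul_inv_cancel]
  obtain ⟨i, hi⟩ := hQ x hxK
  have hi : q ^ i = x * q * x⁻¹ := hi
  have h1 := conj_pow_iter hi.symm p
  rw [hxp, one_mul, inv_one, mul_one] at h1
  have h2 : (q : M) ^ (i ^ p) = q ^ i := by
    refine zpow_eq_zpow_iff_modEq.mpr ?_
    rw [hD.qord, ← ZMod.intCast_eq_intCast_iff]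
    push_cast
    exact ZMod.pow_card _
  refine hD.cent_kerW hS hxK ?_
  rw [← h1] at h2
  exact mul_inv_eq_iff_eq_mul.mp (show x * q * x⁻¹ = q by rw [← hi, ← h2])

theorem conj_zpowers (hS : Setup p (M := M) β b) (hD : SylData p P q W)
    (hQ : ∀ k ∈ kerW M W, k * q * k⁻¹ ∈ Subgroup.zpowers q) (m : M) {x : M}
    (hx : x ∈ Subgroup.zpowers q) : m * x * m⁻¹ ∈ Subgroup.zpowers q := by
  obtain ⟨i, rfl⟩ := hx
  show m * q ^ i * m⁻¹ ∈ _
  rw [← conj_zpow]
  exact Subgroup.zpow_mem _ (q_normal hS hD hQ m) i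

theorem commute_of_fix_pair (hS : Setup p (M := M) β b) (hD : SylData p P q W)
    (hQ : ∀ k ∈ kerW M W, k * q * k⁻¹ ∈ Subgroup.zpowers q) {r : M} {y z : Y} (hy : r • y = y)
    (hz : r • z = z) (hyz : β y = β z) (hne : y ≠ z) : Commute r q := by
  have := hS.fact
  obtain ⟨x, hx, hxz⟩ := hD.transQ hS y z hyz
  have hx1 : x ≠ 1 := fun e => hne (by rw [← hxz, e, one_smul])
  have h1 : (r * x * r⁻¹) • y = x • y := by
    rw [mul_smul, mul_smul, inv_smul_eq_iff.mpr hy.symm, hxz, hz]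
  have h2 : x⁻¹ * (r * x * r⁻¹) = 1 := hD.freeQ hS
    ((Subgroup.zpowers q).mul_mem ((Subgroup.zpowers q).inv_mem hx) (conj_zpowers hS hD hQ r hx))
    (show (x⁻¹ * (r * x * r⁻¹)) • y = y by rw [mul_smul, h1, inv_smul_smul])
  have h3 : Commute r x := mul_inv_eq_iff_eq_mul.mp (inv_mul_eq_one.mp h2).symm
  have hq : q ∈ Subgroup.zpowers x :=
    mem_zpowers_of_prime_card (G := Subgroup.zpowers q) (p := p)
      (by rw [Nat.card_zpowers, hD.qord]) (g := ⟨x, hx⟩) (g' := ⟨q, Subgroup.mem_zpowers q⟩)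
      (fun e => hx1 (congrArg Subtype.val e)) |> fun h => by
      obtain ⟨j, hj⟩ := h
      exact ⟨j, by simpa using congrArg Subtype.val hj⟩
  obtain ⟨j, rfl⟩ := hq
  exact h3.zpow_right j

theorem fix_fibre_of_commute (hS : Setup p (M := M) β b) (hD : SylData p P q W) {r : M} {y z : Y}
    (hc : Commute r q) (hy : r • y = y) (hyz : β y = β z) : r • z = z := by
  obtain ⟨x, hx, rfl⟩ := hD.transQ hS y z hyz
  obtain ⟨i, rfl⟩ := hx
  show r • q ^ i • y = q ^ i • y
  rw [← mul_smul, (hc.zpow_right i).eq, mul_smul, hy]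

/-- The kernel meets a point stabiliser in an abelian group. -/
theorem kernel_stab_comm (hS : Setup p (M := M) β b) (hD : SylData p P q W)
    (hQ : ∀ k ∈ kerW M W, k * q * k⁻¹ ∈ Subgroup.zpowers q) {e f : M}
    (he : e ∈ kerW M W) (he' : e • b = b) (hf : f ∈ kerW M W) (hf' : f • b = b) :
    Commute e f := by
  obtain ⟨i, hi⟩ := hQ e he
  obtain ⟨j, hj⟩ := hQ f hf
  have hi : e * q * e⁻¹ = q ^ i := hi.symm
  have hj : f * q * f⁻¹ = q ^ j := hj.symm
  have h1 : (e * f) * q * (e * f)⁻¹ = q ^ (i * j) := by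
    calc (e * f) * q * (e * f)⁻¹ = e * (f * q * f⁻¹) * e⁻¹ := by group
      _ = (e * q * e⁻¹) ^ j := by rw [hj, conj_zpow]
      _ = q ^ (i * j) := by rw [hi, zpow_mul]
  have h2 : (f * e) * q * (f * e)⁻¹ = q ^ (i * j) := by
    calc (f * e) * q * (f * e)⁻¹ = f * (e * q * e⁻¹) * f⁻¹ := by group
      _ = (f * q * f⁻¹) ^ i := by rw [hi, conj_zpow]
      _ = q ^ (i * j) := by rw [hj, ← zpow_mul, mul_comm]
  have hc : Commute ((f * e)⁻¹ * (e * f)) q := by
    apply mul_inv_eq_iff_eq_mul.mp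
    calc (f * e)⁻¹ * (e * f) * q * ((f * e)⁻¹ * (e * f))⁻¹
        = (f * e)⁻¹ * ((e * f) * q * (e * f)⁻¹) * (f * e) := by group
      _ = (f * e)⁻¹ * ((f * e) * q * (f * e)⁻¹) * (f * e) := by rw [h1, h2]
      _ = q := by group
  have h := hD.cent_fix hS ((kerW M W).mul_mem ((kerW M W).inv_mem ((kerW M W).mul_mem hf he))
    ((kerW M W).mul_mem he hf)) hc (y := b) (by
      rw [mul_smul, mul_smul, hf', he', inv_smul_eq_iff, mul_smul, he', hf'])
  exact (inv_mul_eq_one.mp h).symm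

/-- The possible sets of size `p` fixed by a nontrivial subgroup of the stabiliser. -/
theorem classify (hS : Setup p (M := M) β b) (hD : SylData p P q W)
    (hQ : ∀ k ∈ kerW M W, k * q * k⁻¹ ∈ Subgroup.zpowers q) (R : Subgroup M)
    (hR : R ≤ stabilizer M b) (hRne : R ≠ ⊥) (hfix : (fixSet Y R).ncard = p) :
    fixSet Y R = {y | β y = β b} ∨ fixSet Y R = fixSet Y (kerW M W ⊓ stabilizer M b) := by
  classical
  by_cases hc : ∀ r ∈ R, Commute r q
  · left
    refine (Set.eq_of_subset_of_ncard_le (fun y hy r hr => ?_) ?_ (Set.toFinite _)).symm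
    · exact fix_fibre_of_commute hS hD (hc r hr) (hR hr) (Eq.symm hy)
    · rw [hfix]
      exact le_of_eq (hS.fib (β b)).symm
  · right
    push Not at hc
    obtain ⟨r₀, hr₀, hr₀c⟩ := hc
    have hinj : Set.InjOn β (fixSet Y R) := by
      intro y hy z hz e
      by_contra hne
      exact hr₀c (commute_of_fix_pair hS hD hQ (hy r₀ hr₀) (hz r₀ hr₀) e hne)
    have hall : ∀ w, ∃ y ∈ fixSet Y R, β y = w := by
      intro w
      have : β '' fixSet Y R = Set.univ := Set.eq_of_subset_of_ncard_le (Set.subset_univ _)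
        (by rw [Set.ncard_univ, hS.cardW, Set.ncard_image_of_injOn hinj, hfix]) (Set.toFinite _)
      exact (Set.ext_iff.mp this w).mpr trivial
    have hRE : R ≤ kerW M W ⊓ stabilizer M b := by
      intro r hr
      refine ⟨mem_kerW.mpr fun w => ?_, hR hr⟩
      obtain ⟨y, hy, rfl⟩ := hall w
      rw [← hS.equiv, hy r hr]
    refine Set.Subset.antisymm (fun y hy f hf => ?_) (fun y hy r hr => hy r (hRE hr))
    have hfy : f • y ∈ fixSet Y R := by
      intro r hr
      have h1 : Commute r f := kernel_stab_comm hS hD hQ (hRE hr).1 (hRE hr).2 hf.1 hf.2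
      rw [← mul_smul, h1.eq, mul_smul, hy r hr]
    exact hinj hfy hy (by rw [hS.equiv, mem_kerW.mp hf.1])

/-- A point stabiliser element centralising `q` and fixing a point outside its block is trivial. -/
theorem fix_outside (hS : Setup p (M := M) β b) (hD : SylData p P q W)
    {y : Y} (hy : ∀ h : M, h • b = b → Commute h q → h • y = y) (hne : β y ≠ β b) (h : M)
    (hb : h • b = b) (hc : Commute h q) : h = 1 := by
  classical
  have := hS.fact
  set C := Subgroup.centralizer ({q} : Set M) with hC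
  set U := C ⊓ stabilizer M (β b) with hU
  have hPC : P ≤ C := fun x hx => Subgroup.mem_centralizer_singleton_iff.mpr (hD.comm hS.prime hx hD.qP)
  have hUy : ∀ c ∈ U, c • β y = β y := by
    intro c ⟨hcC, hcw⟩
    have hcq : Commute c q := Subgroup.mem_centralizer_singleton_iff.mp hcC
    obtain ⟨x, hx, he⟩ := hD.transQ hS b (c • b) (by rw [hS.equiv, mem_stabilizer_iff.mp hcw])
    have hxq : Commute x q := by
      obtain ⟨i, rfl⟩ := hx
      exact (Commute.refl q).zpow_left i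
    have h1 := hy (x⁻¹ * c) (by rw [mul_smul, ← he, inv_smul_smul]) (hxq.inv_left.mul_left hcq)
    rw [mul_smul, inv_smul_eq_iff] at h1
    rw [← hS.equiv, h1, hS.equiv, mem_kerW.mp ((Subgroup.zpowers_le.mpr hD.qK) hx)]
  obtain ⟨g, hg, hgy⟩ := hD.transP hS b y
  have hgC : g ∈ C := hPC hg
  let f : U → U := fun c => ⟨g⁻¹ * c * g, C.mul_mem (C.mul_mem (C.inv_mem hgC) c.2.1) hgC,
    mem_stabilizer_iff.mpr (by
      rw [mul_smul, mul_smul, ← hS.equiv g, hgy, hUy c c.2, inv_smul_eq_iff, ← hS.equiv, hgy])⟩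
  have hiter : ∀ j : ℕ, ∀ c ∈ U, c • g ^ j • β b = g ^ j • β b := by
    intro j
    induction j with
    | zero => intro c hc; simpa using mem_stabilizer_iff.mp hc.2
    | succ j ih =>
      intro c hc
      have h1 := ih _ (f ⟨c, hc⟩).2
      simp only [f, mul_smul] at h1
      rw [inv_smul_eq_iff] at h1
      rwa [pow_succ', mul_smul]
  -- the powers of `g` reach every block
  have horb : orbit (Subgroup.zpowers g) (β b) = Set.univ := by
    refine Set.eq_of_subset_of_ncard_le (Set.subset_univ _) ?_ (Set.toFinite _)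
    rw [Set.ncard_univ, hS.cardW, ← Nat.card_coe_set_eq]
    have hd : Nat.card (orbit (Subgroup.zpowers g) (β b)) ∣ p ^ 2 := by
      have h1 := Nat.card_congr (orbitProdStabilizerEquivGroup (Subgroup.zpowers g) (β b))
      rw [Nat.card_prod] at h1
      refine (Dvd.intro _ h1).trans ?_
      rw [Nat.card_zpowers]
      exact orderOf_dvd_of_pow_eq_one (hD.pow_sq hg)
    obtain ⟨i, hi, hcard⟩ := (Nat.dvd_prime_pow hS.prime).mp hd
    rcases i with _ | i
    · exfalso
      rw [pow_zero] at hcard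
      have h1 := (Nat.card_eq_one_iff_unique.mp hcard).1
      have h2 := congrArg Subtype.val (h1.elim
        (⟨g • β b, ⟨⟨g, Subgroup.mem_zpowers g⟩, rfl⟩⟩ : orbit (Subgroup.zpowers g) (β b))
        ⟨β b, mem_orbit_self _⟩)
      exact hne (by rw [← hgy, hS.equiv]; exact h2)
    · rw [hcard]
      exact Nat.le_self_pow (Nat.succ_ne_zero i) p
  refine hD.cent_fix hS (mem_kerW.mpr fun w => ?_) hc hb
  obtain ⟨⟨x, hx⟩, hxw⟩ := (Set.ext_iff.mp horb w).mpr trivial
  obtain ⟨j, rfl⟩ := mem_powers_iff_mem_zpowers.mpr hx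
  have hxw : g ^ j • β b = w := hxw
  rw [← hxw]
  exact hiter j h ⟨Subgroup.mem_centralizer_singleton_iff.mpr hc,
    mem_stabilizer_iff.mpr (by rw [← hS.equiv, hb])⟩

/-- The fixed points of a stabiliser element correspond to its centraliser in the regular group. -/
theorem fix_stab_card (hS : Setup p (M := M) β b) (hD : SylData p P q W)
    (hP : ∀ m : M, ∀ x ∈ P, m * x * m⁻¹ ∈ P) {h : M} (hb : h • b = b) :
    {y : Y | h • y = y}.ncard = Nat.card (P ⊓ Subgroup.centralizer {h} : Subgroup M) := by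
  rw [← Nat.card_coe_set_eq]
  refine (Nat.card_congr (Equiv.ofBijective
    (fun x : (P ⊓ Subgroup.centralizer {h} : Subgroup M) => (⟨(x : M) • b, ?_⟩ : {y : Y | h • y = y}))
    ⟨?_, ?_⟩)).symm
  · show h • (x : M) • b = (x : M) • b
    rw [← mul_smul, ← (Subgroup.mem_centralizer_singleton_iff.mp x.2.2), mul_smul, hb]
  · intro x x' e
    have e' : (x : M) • b = (x' : M) • b := congrArg Subtype.val e
    exact Subtype.ext (inv_mul_eq_one.mp (hD.freeP hS (P.mul_mem (P.inv_mem x'.2.1) x.2.1)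
      (show ((x' : M)⁻¹ * x) • b = b by rw [mul_smul, e', inv_smul_smul]))).symm
  · rintro ⟨y, hy⟩
    obtain ⟨x, hx, rfl⟩ := hD.transP hS b y
    have hy : h • x • b = x • b := hy
    refine ⟨⟨x, hx, Subgroup.mem_centralizer_singleton_iff.mpr ?_⟩, rfl⟩
    have h1 : (x⁻¹ * (h * x * h⁻¹)) • b = b := by
      rw [mul_smul, mul_smul, mul_smul, inv_smul_eq_iff.mpr hb.symm, hy, inv_smul_smul]
    exact ((mul_inv_eq_iff_eq_mul.mp
      (inv_mul_eq_one.mp (hD.freeP hS (P.mul_mem (P.inv_mem hx) (hP h x hx)) h1)).symm)).symm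

end Cfsg.Agent.Lib.DoublyPrimSq
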