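import Cfsg.Agent.Lib.DoublyPrimSq.Local
import Cfsg.Agent.Lib.Perm.Burnside
import Mathlib.GroupTheory.Transfer

/-!
When the kernel does not normalise the group of order `p` on a block it is doubly transitive on
each block, and some element of the regular group outside the kernel centralises a non-central
element of its normaliser.
-/

set_option autoImplicit false
set_option linter.unusedSectionVars false

namespace Cfsg.Agent.Lib.DoublyPrimSq

open MulAction

variable {p : ℕ} {M Y W : Type*} [Group M] [Finite M] [MulAction M Y] [FaithfulSMul M Y] [Finite Y]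
  [MulAction M W] [Finite W] {β : Y → W} {b : Y} {P : Subgroup M} {q : M}

theorem kernel_fibre_trans (hS : Setup p (M := M) β b) (hD : SylData p P q W) (w : W) :
    IsPretransitive ↥(kerW M W) ↥(hS.fibre w) := ⟨fun u v => by
  obtain ⟨x, hx, he⟩ := hD.transQ hS u v (show β (u : Y) = β (v : Y) by rw [u.2, v.2])
  exact ⟨⟨x, (Subgroup.zpowers_le.mpr hD.qK) hx⟩, Subtype.ext he⟩⟩

theorem kernel_two_trans_base (hS : Setup p (M := M) β b) (hD : SylData p P q W)
    (hna : ¬ ∀ k ∈ kerW M W, k * q * k⁻¹ ∈ Subgroup.zpowers q) :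
    5 ≤ p ∧ ∀ u v : Y, β u = β b → β v = β b → u ≠ b → v ≠ b →
      ∃ k ∈ kerW M W, k • b = b ∧ k • u = v := by
  classical
  have := hS.fact
  have : Fintype ↥(hS.fibre (β b)) := Fintype.ofFinite _
  have := kernel_fibre_trans hS hD (β b)
  have : FaithfulSMul ↥(kerW M W) ↥(hS.fibre (β b)) := ⟨fun {k k'} h => Subtype.ext (by
    refine (inv_mul_eq_one.mp (hD.eq_one_of_fix_fibre hS
      ((kerW M W).mul_mem ((kerW M W).inv_mem k'.2) k.2) (β b) fun y hy => ?_)).symm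
    have h1 : (k : M) • y = (k' : M) • y := congrArg Subtype.val (h ⟨y, hy⟩)
    rw [mul_smul, h1, inv_smul_smul])⟩
  have hΩ : Nat.card ↥(hS.fibre (β b)) = p := hS.card_fibre _
  let c : ↥(kerW M W) := ⟨q, hD.qK⟩
  have hc : orderOf c = p := (Subgroup.orderOf_mk ..).trans hD.qord
  obtain ⟨e, he⟩ := Perm.exists_label_faithful (G := ↥(kerW M W)) hΩ hc
  have hnaff : ¬ ∀ g : ↥(kerW M W), Perm.IsAffineElt e g := by
    intro hall
    apply hna
    intro k hk
    obtain ⟨a, b0, hab⟩ := hall ⟨k, hk⟩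
    have h1 : (⟨k, hk⟩ : ↥(kerW M W)) * c = c ^ ((a.val : ℤ)) * ⟨k, hk⟩ := by
      refine eq_of_smul_eq_smul (α := ↥(hS.fibre (β b))) fun x => e.injective ?_
      rw [mul_smul, mul_smul, hab, he, he.zpow, hab, Int.cast_natCast, ZMod.natCast_zmod_val]
      ring
    refine ⟨(a.val : ℤ), ?_⟩
    have h2 := congrArg Subtype.val h1
    simp only [Subgroup.coe_mul, Subgroup.coe_zpow, c] at h2
    show q ^ (a.val : ℤ) = k * q * k⁻¹
    rw [h2, mul_inv_cancel_right]
  refine ⟨Perm.five_le_of_not_affine hnaff, fun u v hu hv hub hvb => ?_⟩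
  have h2 := Perm.two_transitive he hnaff
  let b₀ : ↥(hS.fibre (β b)) := ⟨b, rfl⟩
  let u₀ : ↥(hS.fibre (β b)) := ⟨u, hu⟩
  let v₀ : ↥(hS.fibre (β b)) := ⟨v, hv⟩
  have hbu : b₀ ≠ u₀ := fun e => hub (congrArg Subtype.val e).symm
  have hbv : b₀ ≠ v₀ := fun e => hvb (congrArg Subtype.val e).symm
  obtain ⟨g, hg1, hg2⟩ := MulAction.is_two_pretransitive_iff.mp h2 hbu hbv
  exact ⟨g, g.2, congrArg Subtype.val hg1, congrArg Subtype.val hg2⟩

theorem kernel_two_trans (hS : Setup p (M := M) β b) (hD : SylData p P q W)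
    (hna : ¬ ∀ k ∈ kerW M W, k * q * k⁻¹ ∈ Subgroup.zpowers q)
    {y u v : Y} (hu : β u = β y) (hv : β v = β y) (huy : u ≠ y) (hvy : v ≠ y) :
    ∃ k ∈ kerW M W, k • y = y ∧ k • u = v := by
  obtain ⟨x, hx, rfl⟩ := hD.transP hS b y
  obtain ⟨k, hk, hkb, hkuv⟩ := (kernel_two_trans_base hS hD hna).2 (x⁻¹ • u) (x⁻¹ • v)
    (by rw [hS.equiv, hu, hS.equiv, inv_smul_smul]) (by rw [hS.equiv, hv, hS.equiv, inv_smul_smul])
    (fun e => huy (inv_smul_eq_iff.mp e)) (fun e => hvy (inv_smul_eq_iff.mp e))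
  refine ⟨x * k * x⁻¹, kerW_conj hk x, ?_, ?_⟩
  · rw [mul_smul, mul_smul, inv_smul_smul, hkb]
  · rw [mul_smul, mul_smul, hkuv, smul_inv_smul]

theorem exists_third (hS : Setup p (M := M) β b) (hp : 3 ≤ p) (y u : Y) :
    ∃ v, β v = β y ∧ v ≠ y ∧ v ≠ u := by
  by_contra hno
  push Not at hno
  have h : ({z : Y | β z = β y}).ncard ≤ ({y, u} : Set Y).ncard :=
    Set.ncard_le_ncard (fun z hz => by
      by_cases h : z = y
      · exact Set.mem_insert_iff.mpr (Or.inl h)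
      · exact Set.mem_insert_iff.mpr (Or.inr (hno z hz h))) (Set.toFinite _)
  rw [← Nat.card_coe_set_eq, show Nat.card {z : Y | β z = β y} = p from hS.fib _] at h
  have := Set.ncard_insert_le y ({u} : Set Y)
  rw [Set.ncard_singleton] at this
  omega

/-- A non-trivial element normalising `⟨q⟩` inside the kernel and fixing `b`. -/
theorem exists_normalizing (hS : Setup p (M := M) β b) (hD : SylData p P q W)
    (hna : ¬ ∀ k ∈ kerW M W, k * q * k⁻¹ ∈ Subgroup.zpowers q) :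
    ∃ e₀ ∈ kerW M W, e₀ • b = b ∧ ¬ Commute e₀ q ∧ e₀ * q * e₀⁻¹ ∈ Subgroup.zpowers q ∧
      e₀⁻¹ * q * e₀ ∈ Subgroup.zpowers q := by
  classical
  have := hS.fact
  by_contra hno
  push Not at hno
  set K := kerW M W with hK
  let c : ↥K := ⟨q, hD.qK⟩
  have hc : orderOf c = p := (Subgroup.orderOf_mk ..).trans hD.qord
  let Q₀ : Subgroup ↥K := Subgroup.zpowers c
  have hQcard : Nat.card Q₀ = p := by rw [Nat.card_zpowers, hc]
  let b' : ↥(hS.fibre (β b)) := ⟨b, rfl⟩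
  have := kernel_fibre_trans hS hD (β b)
  have hidx : (stabilizer ↥K b').index = p := by
    rw [index_stabilizer_of_transitive, hS.card_fibre]
  have hstab : ¬ p ∣ Nat.card (stabilizer ↥K b') := by
    intro hd
    obtain ⟨x, hx⟩ := exists_prime_orderOf_dvd_card' p hd
    have hxb : ((x : ↥K) : M) • b = b := congrArg Subtype.val x.2
    have hord : orderOf ((x : ↥K) : M) = p := by rw [Subgroup.orderOf_coe, Subgroup.orderOf_coe, hx]
    have h1 := hS.free (k := 1) (x := ((x : ↥K) : M)) (by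
      rw [pow_one]; exact orderOf_dvd_iff_pow_eq_one.mp (by rw [hord])) hxb
    rw [h1, orderOf_one] at hord
    exact hS.prime.one_lt.ne hord
  have hcardK : Nat.card (stabilizer ↥K b') * p = Nat.card ↥K :=
    ((congrArg (Nat.card (stabilizer ↥K b') * ·) hidx.symm).trans (mul_comm _ _)).trans
      (Subgroup.index_mul_card _)
  have hQidx : Q₀.index = Nat.card (stabilizer ↥K b') := by
    have h := Q₀.index_mul_card
    rw [hQcard, ← hcardK] at h
    exact Nat.eq_of_mul_eq_mul_right hS.prime.pos h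
  have hP' : IsPGroup p Q₀ := IsPGroup.of_card (n := 1) (by rw [hQcard, pow_one])
  let S : Sylow p ↥K := hP'.toSylow (hQidx ▸ hstab)
  have hSQ : (S : Subgroup ↥K) = Q₀ := rfl
  have hPle : Subgroup.normalizer ((S : Subgroup ↥K) : Set ↥K) ≤
      Subgroup.centralizer ((S : Subgroup ↥K) : Set ↥K) := by
    rw [hSQ]
    intro n hn
    rw [Subgroup.mem_centralizer_iff]
    intro z hz
    suffices hnc : Commute (n : M) q by
      obtain ⟨i, rfl⟩ := hz
      exact Subtype.ext (by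
        simp only [Subgroup.coe_mul, Subgroup.coe_zpow, c]
        exact ((hnc.zpow_right i).eq).symm)
    obtain ⟨i, hi⟩ := (Subgroup.mem_normalizer_iff.mp hn c).mp (Subgroup.mem_zpowers c)
    obtain ⟨j, hj⟩ := (Subgroup.mem_normalizer_iff.mp ((Subgroup.normalizer _).inv_mem hn) c).mp
      (Subgroup.mem_zpowers c)
    have hi : q ^ i = (n : M) * q * (n : M)⁻¹ := by
      simpa [c] using congrArg Subtype.val hi
    have hj : q ^ j = (n : M)⁻¹ * q * (n : M) := by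
      simpa [c] using congrArg Subtype.val hj
    obtain ⟨x, hx, hxe⟩ := hD.transQ hS b ((n : M) • b) (by rw [hS.equiv, mem_kerW.mp n.2])
    obtain ⟨l, rfl⟩ := hx
    by_contra hnc
    have hcl : Commute (q ^ l) q := (Commute.refl q).zpow_left l
    refine hno ((q ^ l)⁻¹ * n) (K.mul_mem (K.inv_mem (K.zpow_mem hD.qK l)) n.2)
      (by rw [mul_smul, ← hxe, inv_smul_smul]) (fun hce => hnc ?_) ⟨i, ?_⟩ ⟨j, ?_⟩
    · have := hcl.mul_left hce
      rwa [mul_inv_cancel_left] at this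
    · show q ^ i = (q ^ l)⁻¹ * n * q * ((q ^ l)⁻¹ * n)⁻¹
      calc q ^ i = (q ^ l)⁻¹ * q ^ i * q ^ l := by group
        _ = (q ^ l)⁻¹ * ((n : M) * q * (n : M)⁻¹) * q ^ l := by rw [hi]
        _ = _ := by group
    · show q ^ j = ((q ^ l)⁻¹ * n)⁻¹ * q * ((q ^ l)⁻¹ * n)
      calc q ^ j = (n : M)⁻¹ * q * n := hj
        _ = (n : M)⁻¹ * (q ^ l * q * (q ^ l)⁻¹) * n := by rw [hcl.eq, mul_inv_cancel_right]
        _ = _ := by group
  have hN := MonoidHom.ker_transferSylow_isComplement' S hPle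
  set N : Subgroup ↥K := (MonoidHom.transferSylow S hPle).ker
  have hNcard : Nat.card N = Nat.card (stabilizer ↥K b') := by
    have h := hN.card_mul
    rw [hSQ, hQcard, ← hcardK] at h
    exact Nat.eq_of_mul_eq_mul_right hS.prime.pos h
  have hblock := IsBlock.orbit_of_normal (G := ↥K) (N := N) b'
  have hdvd := hblock.ncard_dvd_card ⟨b', mem_orbit_self b'⟩
  rw [hS.card_fibre] at hdvd
  rcases (Nat.dvd_prime hS.prime).mp hdvd with h1 | hpp
  · -- the complement fixes the block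
    have hN1 : N = ⊥ := by
      refine (Subgroup.eq_bot_iff_forall _).mpr fun n hn => Subtype.ext ?_
      refine hD.eq_one_of_fix_fibre hS n.2 (β b) fun z hz => ?_
      obtain ⟨x, hx, rfl⟩ := hD.transQ hS b z hz.symm
      have hxK : x ∈ K := (Subgroup.zpowers_le.mpr hD.qK) hx
      have hn' : (⟨x, hxK⟩ : ↥K)⁻¹ * n * ⟨x, hxK⟩ ∈ N := by
        have := (MonoidHom.normal_ker (MonoidHom.transferSylow S hPle)).conj_mem n hn (⟨x, hxK⟩ : ↥K)⁻¹
        rwa [inv_inv] at this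
      obtain ⟨z', hz'⟩ := Set.ncard_eq_one.mp h1
      have ha : (⟨_, hn'⟩ : N) • b' = b' := by
        have e1 : (⟨_, hn'⟩ : N) • b' ∈ orbit N b' := mem_orbit _ _
        have e2 : b' ∈ orbit N b' := mem_orbit_self _
        rw [hz', Set.mem_singleton_iff] at e1 e2
        rw [e1, ← e2]
      have ha' : (x⁻¹ * (n : M) * x) • b = b := congrArg Subtype.val ha
      rwa [mul_smul, mul_smul, inv_smul_eq_iff] at ha'
    rw [hN1, Subgroup.card_bot] at hNcard
    obtain ⟨v, hv1, hv2, -⟩ := exists_third hS (by linarith [(kernel_two_trans_base hS hD hna).1]) b b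
    obtain ⟨v', hv1', hv2', hv3'⟩ :=
      exists_third hS (by linarith [(kernel_two_trans_base hS hD hna).1]) b v
    obtain ⟨k, hk, hkb, hkv⟩ := (kernel_two_trans_base hS hD hna).2 v v' hv1 hv1' hv2 hv2'
    have hk1 : (⟨⟨k, hk⟩, Subtype.ext hkb⟩ : stabilizer ↥K b') = 1 :=
      ((Nat.card_eq_one_iff_unique.mp hNcard.symm).1).elim _ _
    have hk1' : k = 1 := congrArg Subtype.val (congrArg Subtype.val hk1)
    rw [hk1', one_smul] at hkv
    exact hv3' hkv.symm
  · refine hstab (hNcard ▸ ?_)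
    have h := Nat.card_congr (orbitProdStabilizerEquivGroup N b')
    rw [Nat.card_prod, Nat.card_coe_set_eq, hpp] at h
    exact Dvd.intro _ h

theorem pow_mem_kerW (hS : Setup p (M := M) β b) (hD : SylData p P q W) {x : M} (hx : x ∈ P) :
    x ^ p ∈ kerW M W := by
  let f := (MulAction.toPermHom M W).comp P.subtype
  have hk := f.ker.index_mul_card
  have hker : Nat.card f.ker = p := by
    rw [← hD.qord, ← Nat.card_zpowers]
    refine Nat.card_congr
      { toFun := fun z => ⟨((z : P) : M), hD.mem_zpowers hS z.1.2 z.2⟩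
        invFun := fun z => ⟨⟨z, (Subgroup.zpowers_le.mpr hD.qP) z.2⟩, (Subgroup.zpowers_le.mpr hD.qK) z.2⟩
        left_inv := fun z => rfl
        right_inv := fun z => rfl }
  rw [Subgroup.index_ker, hker, hD.cardP, pow_two] at hk
  have hr := Nat.eq_of_mul_eq_mul_right hS.prime.pos hk
  have h1 : (⟨f ⟨x, hx⟩, ⟨⟨x, hx⟩, rfl⟩⟩ : f.range) ^ p = 1 := hr ▸ pow_card_eq_one'
  have h2 : f (⟨x, hx⟩ ^ p) = 1 := by
    rw [map_pow]
    simpa using congrArg Subtype.val h1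
  exact h2

/-- An element of the regular group outside the kernel centralising a non-central element of the
normaliser of `⟨q⟩` in the kernel. -/
theorem exists_r (hS : Setup p (M := M) β b) (hD : SylData p P q W) {e₀ : M}
    (hnc : ¬ Commute e₀ q) (he : e₀ ∈ kerW M W) (h1 : e₀ * q * e₀⁻¹ ∈ Subgroup.zpowers q)
    (h2 : e₀⁻¹ * q * e₀ ∈ Subgroup.zpowers q) :
    ∃ r ∈ P, r ^ p = 1 ∧ Commute e₀ r ∧ r • β b ≠ β b := by
  have := hS.fact
  obtain ⟨w, hw⟩ : ∃ w : W, w ≠ β b := by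
    by_contra hno
    push Not at hno
    have h := Nat.card_eq_one_iff_unique (α := W).mpr ⟨⟨fun u v => (hno u).trans (hno v).symm⟩, ⟨β b⟩⟩
    rw [hS.cardW] at h
    exact hS.prime.one_lt.ne h.symm
  obtain ⟨y, hy⟩ : ∃ y, β y = w := by
    have : Nonempty {y : Y // β y = w} := (Nat.card_pos_iff.mp (hS.fib w ▸ hS.prime.pos)).1
    obtain ⟨⟨y, hy⟩⟩ := this
    exact ⟨y, hy⟩
  obtain ⟨x, hx, hxy⟩ := hD.transP hS b y
  have hxw : x • β b ≠ β b := by rw [← hS.equiv, hxy, hy]; exact hw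
  obtain ⟨i, hi⟩ := h1
  obtain ⟨i', hi'⟩ := h2
  have hi : q ^ i = e₀ * q * e₀⁻¹ := hi
  have hi' : q ^ i' = e₀⁻¹ * q * e₀ := hi'
  have hxq : Commute x q := hD.comm hS.prime hx hD.qP
  have hz : x⁻¹ * (e₀⁻¹ * x * e₀) ∈ kerW M W := by
    have h := (kerW M W).mul_mem (kerW_conj ((kerW M W).inv_mem he) x⁻¹) he
    rwa [show x⁻¹ * e₀⁻¹ * x⁻¹⁻¹ * e₀ = x⁻¹ * (e₀⁻¹ * x * e₀) by group] at h
  have hzc : Commute (x⁻¹ * (e₀⁻¹ * x * e₀)) q := by
    refine hxq.inv_left.mul_left (mul_inv_eq_iff_eq_mul.mp ?_)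
    calc e₀⁻¹ * x * e₀ * q * (e₀⁻¹ * x * e₀)⁻¹ = e₀⁻¹ * (x * (e₀ * q * e₀⁻¹) * x⁻¹) * e₀ := by group
      _ = e₀⁻¹ * (e₀ * q * e₀⁻¹) * e₀ := by rw [← hi, (hxq.zpow_right i).eq, mul_inv_cancel_right]
      _ = q := by group
  obtain ⟨l, hl⟩ := hD.cent_kerW hS hz hzc
  have hl : q ^ l = x⁻¹ * (e₀⁻¹ * x * e₀) := hl
  have hne : (1 - (i' : ZMod p)) ≠ 0 := by
    intro h0
    rw [sub_eq_zero, ← Int.cast_one, ZMod.intCast_eq_intCast_iff] at h0
    apply hnc
    have h3 : q ^ i' = q ^ (1 : ℤ) :=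
      zpow_eq_zpow_iff_modEq.mpr (by rw [hD.qord]; exact h0.symm)
    rw [zpow_one, hi'] at h3
    calc e₀ * q = e₀ * (e₀⁻¹ * q * e₀) := by rw [h3]
      _ = q * e₀ := by group
  set j : ℤ := (((l : ZMod p) / (1 - (i' : ZMod p))).val : ℤ) with hj
  have hjq : q ^ (l + i' * j) = q ^ j := by
    refine zpow_eq_zpow_iff_modEq.mpr ?_
    rw [hD.qord, ← ZMod.intCast_eq_intCast_iff]
    push_cast
    rw [hj, Int.cast_natCast, ZMod.natCast_zmod_val]
    field_simp
    ring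
  have hr : e₀⁻¹ * (x * q ^ j) * e₀ = x * q ^ j := by
    calc e₀⁻¹ * (x * q ^ j) * e₀ = (e₀⁻¹ * x * e₀) * (e₀⁻¹ * q ^ j * e₀) := by group
      _ = (x * q ^ l) * (e₀⁻¹ * q * e₀⁻¹⁻¹) ^ j := by rw [hl, conj_zpow, inv_inv, mul_inv_cancel_left]
      _ = x * q ^ (l + i' * j) := by rw [inv_inv, ← hi', ← zpow_mul, mul_assoc, ← zpow_add]
      _ = x * q ^ j := by rw [hjq]
  have hrc : Commute e₀ (x * q ^ j) := by
    calc e₀ * (x * q ^ j) = e₀ * (e₀⁻¹ * (x * q ^ j) * e₀) := by rw [hr]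
      _ = (x * q ^ j) * e₀ := by group
  have hrP : x * q ^ j ∈ P := P.mul_mem hx (P.zpow_mem hD.qP j)
  refine ⟨x * q ^ j, hrP, ?_, hrc, ?_⟩
  · by_contra hne1
    obtain ⟨k, hk⟩ := hD.mem_zpowers hS (P.pow_mem hrP p) (pow_mem_kerW hS hD hrP)
    have hk : q ^ k = (x * q ^ j) ^ p := hk
    apply hnc
    have hck : Commute e₀ (q ^ k) := hk ▸ hrc.pow_right p
    have hq : q ∈ Subgroup.zpowers (q ^ k) := by
      have h := mem_zpowers_of_prime_card (G := Subgroup.zpowers q) (p := p)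
        (by rw [Nat.card_zpowers, hD.qord]) (g := ⟨q ^ k, ⟨k, rfl⟩⟩) (g' := ⟨q, Subgroup.mem_zpowers q⟩)
        (fun e => hne1 (hk ▸ congrArg Subtype.val e))
      obtain ⟨m, hm⟩ := h
      exact ⟨m, by simpa using congrArg Subtype.val hm⟩
    obtain ⟨m, hm⟩ := hq
    rw [← hm]
    exact hck.zpow_right m
  · rwa [mul_smul, mem_kerW.mp ((kerW M W).zpow_mem hD.qK j)]

end Cfsg.Agent.Lib.DoublyPrimSq
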