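import Mathlib

/-!
Double counting for the translates of a set under a doubly transitive group.
-/

set_option autoImplicit false
set_option linter.unusedSectionVars false

namespace Cfsg.Agent.Lib.DoublyPrimSq

open MulAction
open scoped Classical

variable {G Ω : Type*} [Group G] [Finite G] [MulAction G Ω] [Fintype Ω]

noncomputable section

/-- The translates of a finite set. -/
def translates (G : Type*) [Group G] [Finite G] [MulAction G Ω] (F : Finset Ω) : Finset (Finset Ω) :=
  Finset.univ.filter fun L => ∃ g : G, F.image (g • ·) = L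

/-- The translates through two given points. -/
def through (G : Type*) [Group G] [Finite G] [MulAction G Ω] (F : Finset Ω) (a b : Ω) :
    Finset (Finset Ω) :=
  (translates G F).filter fun L => a ∈ L ∧ b ∈ L

theorem card_of_mem_translates {F L : Finset Ω} (hL : L ∈ translates G F) : L.card = F.card := by
  obtain ⟨g, rfl⟩ := (Finset.mem_filter.mp hL).2
  exact Finset.card_image_of_injective _ (MulAction.injective g)

theorem self_mem_translates (F : Finset Ω) : F ∈ translates G F :=
  Finset.mem_filter.mpr ⟨Finset.mem_univ _, 1, by simp⟩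

theorem exists_of_mem_translates {F L : Finset Ω} (hL : L ∈ translates G F) :
    ∃ g : G, F.image (g • ·) = L := (Finset.mem_filter.mp hL).2

theorem translates_image {F L : Finset Ω} (g : G) (hL : L ∈ translates G F) :
    L.image (g • ·) ∈ translates G F := by
  obtain ⟨h, rfl⟩ := (Finset.mem_filter.mp hL).2
  refine Finset.mem_filter.mpr ⟨Finset.mem_univ _, g * h, ?_⟩
  rw [Finset.image_image]
  exact Finset.image_congr fun x _ => mul_smul g h x

theorem image_inv (g : G) (L : Finset Ω) : (L.image (g • ·)).image (g⁻¹ • ·) = L := by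
  rw [Finset.image_image]
  simp [Function.comp_def]

theorem mem_image_smul {g : G} {L : Finset Ω} {x : Ω} : x ∈ L.image (g • ·) ↔ g⁻¹ • x ∈ L := by
  constructor
  · intro h
    obtain ⟨y, hy, rfl⟩ := Finset.mem_image.mp h
    rwa [inv_smul_smul]
  · intro h
    exact Finset.mem_image.mpr ⟨g⁻¹ • x, h, smul_inv_smul g x⟩

theorem card_through_eq (h2 : IsMultiplyPretransitive G Ω 2) (F : Finset Ω) {a b x y : Ω}
    (hab : a ≠ b) (hxy : x ≠ y) : (through G F x y).card = (through G F a b).card := by
  obtain ⟨g, hga, hgb⟩ := MulAction.is_two_pretransitive_iff.mp h2 hab hxy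
  refine Finset.card_bij' (fun L _ => L.image (g⁻¹ • ·)) (fun L _ => L.image (g • ·)) ?_ ?_ ?_ ?_
  · intro L hL
    obtain ⟨hT, hx, hy⟩ := Finset.mem_filter.mp hL
    exact Finset.mem_filter.mpr ⟨translates_image _ hT,
      mem_image_smul.mpr (by rwa [inv_inv, hga]), mem_image_smul.mpr (by rwa [inv_inv, hgb])⟩
  · intro L hL
    obtain ⟨hT, hx, hy⟩ := Finset.mem_filter.mp hL
    refine Finset.mem_filter.mpr ⟨translates_image _ hT, mem_image_smul.mpr ?_, mem_image_smul.mpr ?_⟩
    · rwa [← hga, inv_smul_smul]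
    · rwa [← hgb, inv_smul_smul]
  · intro L _
    have h := image_inv g⁻¹ L
    rwa [inv_inv] at h
  · intro L _
    exact image_inv g L

theorem mem_through {F L : Finset Ω} {a b : Ω} :
    L ∈ through G F a b ↔ L ∈ translates G F ∧ a ∈ L ∧ b ∈ L := Finset.mem_filter

theorem two_count (h2 : IsMultiplyPretransitive G Ω 2) (F : Finset Ω) {a b : Ω} (hab : a ≠ b) :
    (translates G F).card * (F.card * (F.card - 1)) =
      Fintype.card Ω * (Fintype.card Ω - 1) * (through G F a b).card := by
  have h := Finset.sum_card_bipartiteAbove_eq_sum_card_bipartiteBelow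
    (fun (L : Finset Ω) (q : Ω × Ω) => q.1 ∈ L ∧ q.2 ∈ L)
    (s := translates G F) (t := (Finset.univ : Finset Ω).offDiag)
  have h1 : ∀ L ∈ translates G F, ((Finset.univ : Finset Ω).offDiag.bipartiteAbove
      (fun (L : Finset Ω) (q : Ω × Ω) => q.1 ∈ L ∧ q.2 ∈ L) L).card = F.card * (F.card - 1) := by
    intro L hL
    have e : (Finset.univ : Finset Ω).offDiag.bipartiteAbove
        (fun (L : Finset Ω) (q : Ω × Ω) => q.1 ∈ L ∧ q.2 ∈ L) L = L.offDiag := by
      ext q
      simp only [Finset.mem_bipartiteAbove, Finset.mem_offDiag, Finset.mem_univ, true_and]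
      tauto
    rw [e, Finset.offDiag_card, card_of_mem_translates hL, Nat.mul_sub_one]
  have h3 : ∀ q ∈ (Finset.univ : Finset Ω).offDiag, ((translates G F).bipartiteBelow
      (fun (L : Finset Ω) (q : Ω × Ω) => q.1 ∈ L ∧ q.2 ∈ L) q).card = (through G F a b).card := by
    intro q hq
    exact card_through_eq h2 F hab (Finset.mem_offDiag.mp hq).2.2
  rw [Finset.sum_congr rfl h1, Finset.sum_congr rfl h3, Finset.sum_const, Finset.sum_const,
    Finset.offDiag_card, Finset.card_univ, smul_eq_mul, smul_eq_mul] at h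
  rw [h, Nat.mul_sub_one]

theorem one_count (h2 : IsMultiplyPretransitive G Ω 2) (F : Finset Ω) {a b : Ω} (hab : a ≠ b) :
    ((translates G F).filter fun L => a ∈ L).card * (F.card - 1) =
      (Fintype.card Ω - 1) * (through G F a b).card := by
  have h := Finset.sum_card_bipartiteAbove_eq_sum_card_bipartiteBelow
    (fun (L : Finset Ω) (y : Ω) => y ∈ L)
    (s := (translates G F).filter fun L => a ∈ L) (t := (Finset.univ : Finset Ω).erase a)
  have h1 : ∀ L ∈ (translates G F).filter (fun L => a ∈ L), (((Finset.univ : Finset Ω).erase a)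
      |>.bipartiteAbove (fun (L : Finset Ω) (y : Ω) => y ∈ L) L).card = F.card - 1 := by
    intro L hL
    obtain ⟨hT, ha⟩ := Finset.mem_filter.mp hL
    have e : ((Finset.univ : Finset Ω).erase a).bipartiteAbove
        (fun (L : Finset Ω) (y : Ω) => y ∈ L) L = L.erase a := by
      ext q
      simp only [Finset.mem_bipartiteAbove, Finset.mem_erase, Finset.mem_univ, and_true]
    rw [e, Finset.card_erase_of_mem ha, card_of_mem_translates hT]
  have h3 : ∀ y ∈ (Finset.univ : Finset Ω).erase a, (((translates G F).filter fun L => a ∈ L)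
      |>.bipartiteBelow (fun (L : Finset Ω) (y : Ω) => y ∈ L) y).card = (through G F a b).card := by
    intro y hy
    rw [← card_through_eq h2 F hab (Finset.mem_erase.mp hy).1.symm]
    refine congrArg Finset.card ?_
    ext L
    simp only [Finset.mem_bipartiteBelow, through, Finset.mem_filter, and_assoc]
  rw [Finset.sum_congr rfl h1, Finset.sum_congr rfl h3, Finset.sum_const, Finset.sum_const,
    Finset.card_erase_of_mem (Finset.mem_univ a), Finset.card_univ, smul_eq_mul, smul_eq_mul] at h
  exact h

/-- The arithmetic excluding few lines of `p + 1` points on `p ^ 2 + 1` points. -/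
theorem dvd_two_mul {p T m : ℕ} (hp : p.Prime)
    (h : T * ((p + 1) * p) = (p ^ 2 + 1) * p ^ 2 * m) : p + 1 ∣ 2 * m := by
  have h1 : p + 1 ∣ (p ^ 2 + 1) * m * p := by
    refine ⟨T, mul_right_cancel₀ hp.ne_zero ?_⟩
    calc (p ^ 2 + 1) * m * p * p = (p ^ 2 + 1) * p ^ 2 * m := by ring
      _ = T * ((p + 1) * p) := h.symm
      _ = (p + 1) * T * p := by ring
  have h2 : p + 1 ∣ (p ^ 2 + 1) * m :=
    (Nat.Coprime.dvd_mul_right (by simp)).mp h1
  have h3 : p ^ 2 + 1 = (p - 1) * (p + 1) + 2 := by
    obtain ⟨k, rfl⟩ : ∃ k, p = k + 1 := ⟨p - 1, by have := hp.two_le; omega⟩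
    simp only [Nat.add_sub_cancel]
    ring
  rw [h3, add_mul] at h2
  exact (Nat.dvd_add_right ⟨(p - 1) * m, by ring⟩).mp h2

end

end Cfsg.Agent.Lib.DoublyPrimSq
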