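import Mathlib

/-!
Sums of powers of a primitive root of prime order indexed by `ZMod p`.
-/

set_option autoImplicit false

namespace Cfsg.Agent.Lib.DoublyPrimSq

variable {p : ℕ} [hp : Fact p.Prime]

/-- Powers indexed by `ZMod p`. -/
def pw {M : Type*} [Monoid M] (s : M) (a : ZMod p) : M := s ^ a.val

theorem pw_zero {M : Type*} [Monoid M] (s : M) : pw s (0 : ZMod p) = 1 := by simp [pw]

theorem pw_one {M : Type*} [Monoid M] (s : M) : pw s (1 : ZMod p) = s := by
  rw [pw, ZMod.val_one, pow_one]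

theorem pw_add {M : Type*} [Monoid M] {s : M} (hs : s ^ p = 1) (a b : ZMod p) :
    pw s (a + b) = pw s a * pw s b := by
  rw [pw, pw, pw, ← pow_add, ZMod.val_add, ← pow_eq_pow_mod (a.val + b.val) hs]

theorem pw_natCast {M : Type*} [Monoid M] {s : M} (hs : s ^ p = 1) (n : ℕ) :
    pw s (n : ZMod p) = s ^ n := by
  rw [pw, ZMod.val_natCast, ← pow_eq_pow_mod n hs]

theorem pw_intCast {M : Type*} [Group M] {s : M} (hs : s ^ p = 1) (n : ℤ) :
    pw s (n : ZMod p) = s ^ n := by
  rw [pw, ← zpow_natCast]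
  refine (zpow_eq_zpow_iff_modEq.mpr ?_)
  rw [← ZMod.intCast_eq_intCast_iff]
  have hd : orderOf s ∣ p := orderOf_dvd_of_pow_eq_one hs
  have h1 : (((n : ZMod p).val : ℤ) : ZMod p) = (n : ZMod p) := by
    rw [Int.cast_natCast, ZMod.natCast_zmod_val]
  rw [ZMod.intCast_eq_intCast_iff] at h1 ⊢
  exact h1.of_dvd (Int.natCast_dvd_natCast.mpr hd)

theorem sum_eq_range {A : Type*} [AddCommMonoid A] (f : ℕ → A) :
    ∑ x : ZMod p, f x.val = ∑ i ∈ Finset.range p, f i := by
  have := hp.out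
  refine Finset.sum_bij' (fun x _ => x.val) (fun i _ => (i : ZMod p)) (fun x _ => Finset.mem_range.mpr (ZMod.val_lt x))
    (fun i _ => Finset.mem_univ _) (fun x _ => ZMod.natCast_zmod_val x)
    (fun i hi => ZMod.val_natCast_of_lt (Finset.mem_range.mp hi)) (fun x _ => rfl)

theorem sum_pw {ζ : ℂ} (hζ : IsPrimitiveRoot ζ p) : ∑ x : ZMod p, pw ζ x = 0 :=
  (sum_eq_range (fun i => ζ ^ i)).trans (hζ.geom_sum_eq_zero hp.out.one_lt)

theorem coeff_const {ζ : ℂ} (hζ : IsPrimitiveRoot ζ p) (a : ZMod p → ℤ)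
    (h : ∑ x : ZMod p, (a x : ℂ) * pw ζ x = 0) (x y : ZMod p) : a x = a y := by
  have hp1 := hp.out
  suffices hall : ∀ x : ZMod p, a x = a ((p - 1 : ℕ) : ZMod p) by rw [hall x, hall y]
  set last : ZMod p := ((p - 1 : ℕ) : ZMod p) with hlast
  let b : ℕ → ℚ := fun i => ((a (i : ZMod p) - a last : ℤ) : ℚ)
  have h0 : ∑ x : ZMod p, ((a x - a last : ℤ) : ℂ) * pw ζ x = 0 := by
    simp only [Int.cast_sub, sub_mul, Finset.sum_sub_distrib, ← Finset.mul_sum, h, sum_pw hζ]
    simp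
  have h1 : ∑ i ∈ Finset.range p, (b i : ℂ) * ζ ^ i = 0 := by
    rw [← sum_eq_range (fun i => (b i : ℂ) * ζ ^ i)]
    refine Eq.trans (Finset.sum_congr rfl fun x _ => ?_) h0
    simp only [b, ZMod.natCast_zmod_val, pw, Rat.cast_intCast]
  have hpe : p - 1 + 1 = p := Nat.sub_add_cancel hp1.pos
  rw [← hpe, Finset.sum_range_succ] at h1
  have hb : b (p - 1) = 0 := by simp [b, hlast]
  rw [hb, Rat.cast_zero, zero_mul, add_zero] at h1
  have hdeg : (minpoly ℚ ζ).natDegree = p - 1 := by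
    rw [← Polynomial.cyclotomic_eq_minpoly_rat hζ hp1.pos, Polynomial.natDegree_cyclotomic,
      Nat.totient_prime hp1]
  have hli := linearIndependent_pow (K := ℚ) ζ
  rw [hdeg] at hli
  have h2 := Fintype.linearIndependent_iff.mp hli (fun i : Fin (p - 1) => b i) (by
    rw [Fin.sum_univ_eq_sum_range (fun i => b i • ζ ^ i)]
    exact (Finset.sum_congr rfl fun i _ => Rat.smul_def (b i) (ζ ^ i)).trans h1)
  intro x
  by_cases hx : x.val = p - 1
  · rw [hlast, ← hx, ZMod.natCast_zmod_val]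
  · have hlt : x.val < p - 1 := by
      have := ZMod.val_lt x
      omega
    have := h2 ⟨x.val, hlt⟩
    simp only [b, ZMod.natCast_zmod_val, Int.cast_eq_zero, sub_eq_zero] at this
    exact this

/-- A set of residues whose character sum has the same `p`-th power at conjugate roots is a reflection
of its negative. -/
theorem reflect {ζ : ℂ} (hζ : IsPrimitiveRoot ζ p) (D : Finset (ZMod p)) (h0 : 0 ∈ D)
    (hD : D ≠ Finset.univ)
    (h : (∑ d ∈ D, pw ζ d) ^ p = (∑ d ∈ D, pw ζ (-d)) ^ p) :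
    ∃ c : ZMod p, ∀ x, x ∈ D ↔ c - x ∈ D := by
  classical
  have hζp : ζ ^ p = 1 := hζ.pow_eq_one
  have hind : ∀ (c : ZMod p), ∑ x : ZMod p, ((if c - x ∈ D then (1 : ℤ) else 0 : ℤ) : ℂ) * pw ζ x =
      ∑ d ∈ D, pw ζ (c - d) := by
    intro c
    rw [← Fintype.sum_equiv (Equiv.subLeft c)
      (fun d => ((if d ∈ D then (1 : ℤ) else 0 : ℤ) : ℂ) * pw ζ (c - d)) _ (fun d => by simp)]
    simp [Finset.sum_ite_mem]
  have hne : ∑ d ∈ D, pw ζ (-d) ≠ 0 := by
    intro h1
    apply hD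
    have h2 := coeff_const hζ (fun x => if (0 : ZMod p) - x ∈ D then 1 else 0)
      (by rw [hind]; simpa using h1)
    rw [Finset.eq_univ_iff_forall]
    intro x
    by_contra hx
    have h3 := h2 0 (-x)
    simp [h0, hx] at h3
  have hroot : ((∑ d ∈ D, pw ζ d) / (∑ d ∈ D, pw ζ (-d))) ^ p = 1 := by
    rw [div_pow, h, div_self (pow_ne_zero _ hne)]
  have : NeZero p := ⟨hp.out.ne_zero⟩
  obtain ⟨i, hi, hic⟩ := hζ.eq_pow_of_pow_eq_one hroot
  refine ⟨(i : ZMod p), fun x => ?_⟩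
  rw [eq_div_iff hne, Finset.mul_sum] at hic
  have h4 : ∑ x : ZMod p, (((if x ∈ D then (1 : ℤ) else 0) - (if (i : ZMod p) - x ∈ D then 1 else 0) : ℤ) : ℂ)
      * pw ζ x = 0 := by
    simp only [Int.cast_sub, sub_mul, Finset.sum_sub_distrib, hind]
    rw [sub_eq_zero]
    refine Eq.trans (by simp [Finset.sum_ite_mem]) (hic.symm.trans (Finset.sum_congr rfl fun d _ => ?_))
    rw [sub_eq_add_neg, pw_add hζp, pw_natCast hζp]
  have h5 : ∀ x, (if x ∈ D then (1 : ℤ) else 0) - (if (i : ZMod p) - x ∈ D then 1 else 0) = 0 := by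
    intro x
    have hk := coeff_const hζ
      (fun x => (if x ∈ D then (1 : ℤ) else 0) - (if (i : ZMod p) - x ∈ D then 1 else 0)) h4
    have hsum : ∑ y : ZMod p,
        ((if y ∈ D then (1 : ℤ) else 0) - (if (i : ZMod p) - y ∈ D then 1 else 0)) = 0 := by
      rw [Finset.sum_sub_distrib, sub_eq_zero]
      exact (Fintype.sum_equiv (Equiv.subLeft (i : ZMod p))
        (fun y => if (i : ZMod p) - y ∈ D then (1 : ℤ) else 0) _ (fun y => by simp)).symm
    rw [Finset.sum_congr rfl fun y _ => hk y x, Finset.sum_const, Finset.card_univ, ZMod.card,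
      nsmul_eq_mul] at hsum
    exact (mul_eq_zero.mp hsum).resolve_left (Nat.cast_ne_zero.mpr hp.out.ne_zero)
  have := h5 x
  by_cases hx : x ∈ D <;> by_cases hx' : (i : ZMod p) - x ∈ D <;> simp_all

/-- A symmetric difference set containing zero which is not everything is trivial. -/
theorem symmetric_trivial (hp2 : p ≠ 2) (D : Finset (ZMod p)) (h0 : 0 ∈ D) (hD : D ≠ Finset.univ)
    (hsym : ∀ x, x ∈ D ↔ -x ∈ D)
    (hconst : ∀ s t : ZMod p, s ≠ 0 → t ≠ 0 →
      (D.filter fun d => d - s ∈ D).card = (D.filter fun d => d - t ∈ D).card) :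
    D = {0} := by
  classical
  have h2 : (2 : ZMod p) ≠ 0 := by
    intro h
    have h' : ((2 : ℕ) : ZMod p) = 0 := by exact_mod_cast h
    rw [ZMod.natCast_eq_zero_iff] at h'
    exact hp2 ((Nat.prime_dvd_prime_iff_eq hp.out Nat.prime_two).mp h')
  have hpar : ∀ u : ZMod p,
      (((D.filter fun d => d - (2 * u) ∈ D).card : ℕ) : ZMod 2) = if u ∈ D then 1 else 0 := by
    intro u
    set S := D.filter fun d => d - (2 * u) ∈ D with hS
    have hmem : ∀ d, d ∈ S ↔ d ∈ D ∧ d - 2 * u ∈ D := fun d => Finset.mem_filter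
    have hflip : ∀ d ∈ S, 2 * u - d ∈ S := by
      intro d hd
      obtain ⟨h3, h4⟩ := (hmem d).mp hd
      refine (hmem _).mpr ⟨?_, ?_⟩
      · rw [← neg_sub]; exact (hsym _).mp h4
      · rw [sub_sub_cancel_left]; exact (hsym _).mp h3
    have hzero : ∑ d ∈ S.erase u, (1 : ZMod 2) = 0 := by
      refine Finset.sum_involution (fun d _ => 2 * u - d) (fun _ _ => by decide) ?_ ?_ ?_
      · intro d hd _ he
        refine (Finset.mem_erase.mp hd).1 (mul_left_cancel₀ h2 ?_)
        linear_combination -he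
      · intro d hd
        refine Finset.mem_erase.mpr ⟨fun he => (Finset.mem_erase.mp hd).1 ?_,
          hflip d (Finset.mem_erase.mp hd).2⟩
        linear_combination -he
      · intro d _; ring
    rw [Finset.sum_const, nsmul_one] at hzero
    have huS : u ∈ S ↔ u ∈ D := by
      rw [hmem, show u - 2 * u = -u by ring, ← hsym, and_self]
    by_cases hu : u ∈ D
    · rw [if_pos hu, ← Finset.card_erase_add_one (huS.mpr hu), Nat.cast_add, hzero]
      simp
    · rw [if_neg hu, ← Finset.erase_eq_of_notMem (fun h => hu (huS.mp h))]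
      exact hzero
  ext x
  refine ⟨fun hx => ?_, fun hx => by rw [Finset.mem_singleton.mp hx]; exact h0⟩
  by_contra hx0
  rw [Finset.mem_singleton] at hx0
  apply hD
  rw [Finset.eq_univ_iff_forall]
  intro y
  by_cases hy0 : y = 0
  · rw [hy0]; exact h0
  have e := hconst (2 * x) (2 * y) (mul_ne_zero h2 hx0) (mul_ne_zero h2 hy0)
  have e' := congrArg (fun n : ℕ => (n : ZMod 2)) e
  simp only [hpar, if_pos hx] at e'
  by_contra hy
  rw [if_neg hy] at e'
  exact one_ne_zero e'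

end Cfsg.Agent.Lib.DoublyPrimSq
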