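import Cfsg.Agent.Lib.DoublyPrimSq.Coset
import Cfsg.Agent.Lib.DoublyPrimSq.Fourier
import Cfsg.Agent.Lib.Perm.Basic

/-!
The coordinates given by the regular group, and the symmetric designs between two blocks.
-/

set_option autoImplicit false
set_option linter.unusedSectionVars false

namespace Cfsg.Agent.Lib.DoublyPrimSq

open MulAction

variable {p : ℕ} [hpf : Fact p.Prime] {M Y W : Type*} [Group M] [Finite M] [MulAction M Y]
  [FaithfulSMul M Y] [Finite Y] [MulAction M W] [Finite W] {β : Y → W} {b : Y} {P : Subgroup M} {q : M}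

/-- A suborbit of the kernel. -/
def suborbit (M W : Type*) [Group M] [MulAction M W] {Y : Type*} [MulAction M Y] (b c : Y) : Set Y :=
  {v | ∃ k ∈ kerW M W, k • b = b ∧ k • c = v}

theorem pw_mem {H : Subgroup M} {s : M} (hs : s ∈ H) (a : ZMod p) : pw s a ∈ H := H.pow_mem hs _

theorem pw_mul {s : M} (hs : s ^ p = 1) (a : ZMod p) (n : ℕ) : pw s ((n : ZMod p) * a) = pw s a ^ n := by
  induction n with
  | zero => simp [pw_zero]
  | succ n ih => rw [Nat.cast_succ, add_mul, one_mul, pw_add hs, ih, pow_succ]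

/-- Equal suborbit sizes on every other block are impossible. -/
theorem exists_intransitive (hS : Setup p (M := M) β b) (hD : SylData p P q W)
    (hna : ¬ ∀ k ∈ kerW M W, k * q * k⁻¹ ∈ Subgroup.zpowers q) :
    ∃ u v : Y, β u ≠ β b ∧ β v = β u ∧ v ∉ suborbit M W b u := by
  classical
  by_contra hall
  push Not at hall
  have hp5 := (kernel_two_trans_base hS hD hna).1
  set K := kerW M W with hK
  have : Fintype ↥K := Fintype.ofFinite _
  have : Fintype Y := Fintype.ofFinite _
  -- point stabilisers in the kernel have index `p`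
  have horb : ∀ y : Y, orbit ↥K y = {z | β z = β y} := by
    intro y
    ext z
    constructor
    · rintro ⟨k, rfl⟩
      show β ((k : M) • y) = β y
      rw [hS.equiv, mem_kerW.mp k.2]
    · intro hz
      obtain ⟨x, hx, rfl⟩ := hD.transQ hS y z (Eq.symm hz)
      exact ⟨⟨x, (Subgroup.zpowers_le.mpr hD.qK) hx⟩, rfl⟩
  have hk : ∀ y : Y, p * Nat.card (stabilizer ↥K y) = Nat.card ↥K := by
    intro y
    rw [← Nat.card_congr (orbitProdStabilizerEquivGroup ↥K y), Nat.card_prod, horb y]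
    exact congrArg (· * _) (hS.fib (β y)).symm
  set k₀ := Nat.card (stabilizer ↥K b) with hk₀
  have hk' : ∀ y : Y, Nat.card (stabilizer ↥K y) = k₀ := fun y =>
    Nat.eq_of_mul_eq_mul_left hS.prime.pos ((hk y).trans (hk b).symm)
  -- the orbits of the kernel
  have hK1 : Nat.card (orbitRel.Quotient ↥K Y) = p := by
    rw [← hS.cardW]
    refine Nat.card_congr (Equiv.ofBijective (Quotient.lift β fun y z h => ?_) ⟨?_, ?_⟩)
    · have h' : y ∈ orbit ↥K z := h
      rw [horb z] at h'
      exact h'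
    · intro a c
      induction a using Quotient.inductionOn with | h y => ?_
      induction c using Quotient.inductionOn with | h z => ?_
      intro h
      refine Quotient.sound ?_
      show y ∈ orbit ↥K z
      rw [horb z]
      exact h
    · intro w
      have : Nonempty {y : Y // β y = w} := (Nat.card_pos_iff.mp (hS.fib w ▸ hS.prime.pos)).1
      obtain ⟨⟨y, hy⟩⟩ := this
      exact ⟨⟦y⟧, hy⟩
  -- the orbits of a point stabiliser
  have hK2 : ∀ y : Y, Nat.card (orbitRel.Quotient (stabilizer ↥K y) Y) = p + 1 := by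
    intro y
    have hstab : ∀ z z' : Y, z ∈ orbit (stabilizer ↥K y) z' →
        (if z = y then none else some (β z) : Option W) = if z' = y then none else some (β z') := by
      rintro z z' ⟨⟨k, hky⟩, rfl⟩
      have hky : (k : M) • y = y := hky
      have h1 : ((k : M) • z' = y) ↔ z' = y :=
        ⟨fun h => MulAction.injective (k : M) (h.trans hky.symm), fun h => by rw [h, hky]⟩
      show (if (k : M) • z' = y then none else some (β ((k : M) • z')) : Option W) = _
      rw [hS.equiv, mem_kerW.mp k.2]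
      exact if_congr h1 rfl rfl
    have hinj : ∀ z z' : Y, (if z = y then none else some (β z) : Option W) =
        (if z' = y then none else some (β z')) → z ∈ orbit (stabilizer ↥K y) z' := by
      intro z z' h
      by_cases hz : z = y
      · by_cases hz' : z' = y
        · rw [hz, hz']; exact mem_orbit_self _
        · simp [hz, hz'] at h
      · by_cases hz' : z' = y
        · simp [hz, hz'] at h
        · simp only [hz, hz', if_false, Option.some.injEq] at h
          by_cases hzy : β z' = β y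
          · obtain ⟨k, hk, hky, hkz⟩ :=
              kernel_two_trans hS hD hna hzy (h.trans hzy) hz' hz
            exact ⟨⟨⟨k, hk⟩, hky⟩, hkz⟩
          · obtain ⟨x, hx, hxy⟩ := hD.transP hS b y
            have hx' : β (x⁻¹ • z') ≠ β b := fun e => hzy (by
              rw [← hxy, hS.equiv, ← e, hS.equiv, smul_inv_smul])
            obtain ⟨k, hk, hkb, hkz⟩ := hall (x⁻¹ • z') (x⁻¹ • z) hx' (by
              rw [hS.equiv, hS.equiv, h])
            exact ⟨⟨⟨x * k * x⁻¹, kerW_conj hk x⟩, (show (x * k * x⁻¹) • y = y by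
              rw [mul_smul, mul_smul, ← hxy, inv_smul_smul, hkb])⟩,
              (show (x * k * x⁻¹) • z' = z by rw [mul_smul, mul_smul, hkz, smul_inv_smul])⟩
    rw [← hS.cardW, ← Finite.card_option]
    refine Nat.card_congr (Equiv.ofBijective
      (Quotient.lift (fun z => if z = y then none else some (β z)) fun z z' h => hstab z z' h) ⟨?_, ?_⟩)
    · intro a c
      induction a using Quotient.inductionOn with | h z => ?_
      induction c using Quotient.inductionOn with | h z' => ?_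
      intro h
      exact Quotient.sound (hinj z z' h)
    · rintro (_ | w)
      · exact ⟨⟦y⟧, if_pos rfl⟩
      · by_cases hw : w = β y
        · obtain ⟨z, hz, hzy, -⟩ := exists_third hS (by omega) y y
          exact ⟨⟦z⟧, (if_neg hzy).trans (congrArg some (hz.trans hw.symm))⟩
        · have : Nonempty {z : Y // β z = w} := (Nat.card_pos_iff.mp (hS.fib w ▸ hS.prime.pos)).1
          obtain ⟨⟨z, hz⟩⟩ := this
          refine ⟨⟦z⟧, (if_neg fun e => hw ?_).trans (congrArg some hz)⟩
          rw [← hz, e]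
  -- the second moment
  let F : ↥K → ℤ := fun g => (Nat.card (fixedBy Y g) : ℤ)
  have hcardK : (Nat.card ↥K : ℤ) = (p : ℤ) * k₀ := by
    rw [← hk b]
    push_cast
    rfl
  have hF1 : ∑ g, F g = (p : ℤ) * (p * k₀) := by
    have h := Perm.sum_fixedBy (G := ↥K) (X := Y)
    rw [hK1] at h
    have h' := congrArg (fun n : ℕ => (n : ℤ)) h
    push_cast at h'
    rw [h', hcardK]
  have hFy : ∀ y : Y, ∑ g ∈ Finset.univ.filter (fun g : ↥K => g • y = y), F g = ((p : ℤ) + 1) * k₀ := by
    intro y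
    have h := Perm.sum_fixedBy (G := stabilizer ↥K y) (X := Y)
    rw [hK2, hk'] at h
    have h' := congrArg (fun n : ℕ => (n : ℤ)) h
    push_cast at h'
    rw [← h']
    rw [Finset.sum_subtype (Finset.univ.filter (fun g : ↥K => g • y = y)) (p := fun g => g ∈ stabilizer ↥K y)
      (fun g => by simp [mem_stabilizer_iff]) F]
    rfl
  have hF2 : ∑ g, F g * F g = (p : ℤ) ^ 2 * (((p : ℤ) + 1) * k₀) := by
    have h1 : ∀ g : ↥K, F g * F g = ∑ y : Y, if g • y = y then F g else 0 := by
      intro g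
      rw [← Finset.sum_filter, Finset.sum_const, nsmul_eq_mul]
      congr 1
      simp only [F]
      rw [Nat.card_eq_fintype_card, ← Fintype.card_subtype]
      norm_cast
    simp only [h1]
    rw [Finset.sum_comm]
    simp only [← Finset.sum_filter, hFy, Finset.sum_const, Finset.card_univ, nsmul_eq_mul]
    rw [← Nat.card_eq_fintype_card, hS.card]
    push_cast
    ring
  -- the conjugates of `q` fix nothing
  let c : ↥K := ⟨q, hD.qK⟩
  let U : Finset ↥K := Finset.univ.image fun k => k * c * k⁻¹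
  have hUcard : k₀ ≤ U.card := by
    have hle : (Finset.univ : Finset ↥K).card ≤ p * U.card := by
      haveI : Fintype ↥(Subgroup.zpowers q) := Fintype.ofFinite _
      refine Finset.card_le_mul_card_image _ p fun u hu => ?_
      obtain ⟨k₁, -, rfl⟩ := Finset.mem_image.mp hu
      have hsub : Finset.univ.filter (fun k => k * c * k⁻¹ = k₁ * c * k₁⁻¹) ⊆
          (Finset.univ : Finset (Subgroup.zpowers q)).image
            (fun x => k₁ * ⟨x, (Subgroup.zpowers_le.mpr hD.qK) x.2⟩) := by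
        intro k hk
        have hk : k * c * k⁻¹ = k₁ * c * k₁⁻¹ := (Finset.mem_filter.mp hk).2
        have hc : Commute (k₁⁻¹ * k) c := by
          refine mul_inv_eq_iff_eq_mul.mp ?_
          calc k₁⁻¹ * k * c * (k₁⁻¹ * k)⁻¹ = k₁⁻¹ * (k * c * k⁻¹) * k₁ := by group
            _ = k₁⁻¹ * (k₁ * c * k₁⁻¹) * k₁ := by rw [hk]
            _ = c := by group
        have hmem := hD.cent_kerW hS (k₁⁻¹ * k).2 (congrArg Subtype.val hc)
        exact Finset.mem_image.mpr ⟨⟨_, hmem⟩, Finset.mem_univ _,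
          by simp only [Subtype.coe_eta]; exact mul_inv_cancel_left k₁ k⟩
      refine (Finset.card_le_card hsub).trans (Finset.card_image_le.trans (le_of_eq ?_))
      rw [Finset.card_univ, ← Nat.card_eq_fintype_card, Nat.card_zpowers, hD.qord]
    rw [Finset.card_univ, ← Nat.card_eq_fintype_card, ← hk b] at hle
    exact Nat.le_of_mul_le_mul_left hle hS.prime.pos
  have hU0 : ∀ g ∈ U, F g = 0 := by
    intro g hg
    obtain ⟨k, -, rfl⟩ := Finset.mem_image.mp hg
    simp only [F, Nat.cast_eq_zero]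
    have : IsEmpty (fixedBy Y (k * c * k⁻¹)) := ⟨fun ⟨z, hz⟩ => by
      have hz : ((k : M) * q * (k : M)⁻¹) • z = z := hz
      rw [mul_smul, mul_smul, smul_eq_iff_eq_inv_smul] at hz
      have h1 := hD.freeP hS hD.qP hz
      have := hD.qord
      rw [h1, orderOf_one] at this
      exact hS.prime.one_lt.ne this⟩
    exact Nat.card_of_isEmpty
  have hS1 : ∑ g, (F g - (p + 1)) ^ 2 = ((p : ℤ) + 1) * p * k₀ := by
    have e : ∀ g, (F g - (p + 1)) ^ 2 = F g * F g - 2 * (p + 1) * F g + ((p : ℤ) + 1) ^ 2 := fun g => by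
      ring
    simp only [e, Finset.sum_add_distrib, Finset.sum_sub_distrib, ← Finset.mul_sum, hF1, hF2,
      Finset.sum_const, Finset.card_univ, nsmul_eq_mul]
    rw [← Nat.card_eq_fintype_card, hcardK]
    ring
  have hS2 : (U.card : ℤ) * ((p : ℤ) + 1) ^ 2 ≤ ∑ g, (F g - (p + 1)) ^ 2 := by
    refine le_trans (le_of_eq ?_) (Finset.sum_le_sum_of_subset_of_nonneg (Finset.subset_univ U)
      (fun g _ _ => sq_nonneg _))
    rw [Finset.sum_congr rfl (fun g hg => by rw [hU0 g hg]), Finset.sum_const, nsmul_eq_mul]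
    ring
  have hk0 : (0 : ℤ) < k₀ := by
    have : 0 < k₀ := Nat.card_pos
    exact_mod_cast this
  have hp0 : (0 : ℤ) < (p : ℤ) + 1 := by positivity
  have h3 : (k₀ : ℤ) * ((p : ℤ) + 1) ^ 2 ≤ ((p : ℤ) + 1) * p * k₀ :=
    le_trans (mul_le_mul_of_nonneg_right (by exact_mod_cast hUcard) (sq_nonneg _)) (hS1 ▸ hS2)
  nlinarith [mul_pos hk0 hp0]

section Coordinates

variable (hS : Setup p (M := M) β b) (hD : SylData p P q W) {r : M}

/-- Coordinates given by two elements of order `p`. -/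
def pt (r q : M) (b : Y) (i x : ZMod p) : Y := pw r i • pw q x • b

include hS hD

theorem pw_w_zero (hrp : r ^ p = 1) (hrw : r • β b ≠ β b) {i : ZMod p} (h : pw r i • β b = β b) :
    i = 0 := by
  by_contra hi
  apply hrw
  have h1 : pw r i ∈ stabilizer M (β b) := h
  have h2 := (stabilizer M (β b)).pow_mem h1 (i⁻¹).val
  rw [← pw_mul hrp, ZMod.natCast_zmod_val, inv_mul_cancel₀ hi, pw_one] at h2
  exact h2

theorem β_pt (i x : ZMod p) : β (pt r q b i x) = pw r i • β b := by
  rw [pt, hS.equiv, hS.equiv, mem_kerW.mp (pw_mem hD.qK x)]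

theorem pw_q_zero {x : ZMod p} (h : pw q x • b = b) : x = 0 := by
  have h1 : pw q x = 1 := hD.freeP hS (pw_mem hD.qP x) h
  have h2 : p ∣ x.val := (dvd_of_eq hD.qord.symm).trans (orderOf_dvd_of_pow_eq_one (show q ^ x.val = 1 from h1))
  exact (ZMod.val_eq_zero x).mp (Nat.eq_zero_of_dvd_of_lt h2 (ZMod.val_lt x))

theorem pt_bijective (hrp : r ^ p = 1) (hrw : r • β b ≠ β b) :
    Function.Bijective (fun ix : ZMod p × ZMod p => pt r q b ix.1 ix.2) := by
  refine (Nat.bijective_iff_injective_and_card _).mpr ⟨?_, by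
    rw [Nat.card_prod, Nat.card_zmod, hS.card, pow_two]⟩
  rintro ⟨i, x⟩ ⟨j, y⟩ h
  have h : pt r q b i x = pt r q b j y := h
  have hij : i = j := by
    have h1 := congrArg β h
    rw [β_pt hS hD, β_pt hS hD, show i = j + (i - j) by ring, pw_add hrp, mul_smul] at h1
    exact sub_eq_zero.mp (pw_w_zero hS hD hrp hrw (MulAction.injective _ h1))
  subst hij
  have h1 : pw q x • b = pw q y • b := MulAction.injective (pw r i) h
  rw [show x = y + (x - y) by ring, pw_add hD.pow_p, mul_smul] at h1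
  rw [sub_eq_zero.mp (pw_q_zero hS hD (MulAction.injective _ h1))]

theorem smul_pt (hrP : r ∈ P) (hrp : r ^ p = 1) (j y i x : ZMod p) :
    (pw r j * pw q y) • pt r q b i x = pt r q b (j + i) (y + x) := by
  rw [pt, pt, pw_add hrp, pw_add hD.pow_p, ← mul_smul, ← mul_smul, ← mul_smul]
  congr 1
  refine (mul_assoc _ _ _).trans ?_
  exact Commute.mul_mul_mul_comm (hD.comm hS.prime (pw_mem hD.qP y) (pw_mem hrP i)) _ _

theorem repP (hrP : r ∈ P) (hrp : r ^ p = 1) (hrw : r • β b ≠ β b) {z : M} (hz : z ∈ P) :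
    ∃ i x : ZMod p, z = pw r i * pw q x := by
  obtain ⟨⟨i, x⟩, h⟩ := (pt_bijective hS hD hrp hrw).2 (z • b)
  refine ⟨i, x, (inv_mul_eq_one.mp (hD.freeP hS
    (P.mul_mem (P.inv_mem (P.mul_mem (pw_mem hrP i) (pw_mem hD.qP x))) hz) (y := b) ?_)).symm⟩
  rw [mul_smul, inv_smul_eq_iff, mul_smul]
  exact h.symm

/-- The relation between two blocks given by a suborbit. -/
def Rel (hS : Setup p (M := M) β b) (P : Subgroup M) (r : M) (u v : Y) : Prop :=
  ∃ z ∈ P, z • b = u ∧ z⁻¹ • v ∈ suborbit M W b (r • b)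

theorem Rel_smul {k : M} (hk : k ∈ kerW M W) {u v : Y} (h : Rel hS P r u v) :
    Rel hS P r (k • u) (k • v) := by
  obtain ⟨z, hz, hzu, hzv⟩ := h
  obtain ⟨z', hz', hzu'⟩ := hD.transP hS b (k • u)
  obtain ⟨k', hk', hk'b, hk'v⟩ := hzv
  refine ⟨z', hz', hzu', ?_⟩
  obtain ⟨x, hx, hxb⟩ := hD.transQ hS b ((z'⁻¹ * z) • b) (by
    rw [hS.equiv, mul_smul, ← hS.equiv z b, hzu]
    apply MulAction.injective z'
    show z' • β b = z' • (z'⁻¹ • β u)
    rw [smul_inv_smul, ← hS.equiv z' b, hzu', hS.equiv, mem_kerW.mp hk])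
  have hzz : z'⁻¹ * z ∈ kerW M W := by
    have h1 := hD.freeP hS (P.mul_mem (P.inv_mem ((Subgroup.zpowers_le.mpr hD.qP) hx))
      (P.mul_mem (P.inv_mem hz') hz))
      (show (x⁻¹ * (z'⁻¹ * z)) • b = b by rw [mul_smul, ← hxb, inv_smul_smul])
    rw [← inv_mul_eq_one.mp h1]
    exact (Subgroup.zpowers_le.mpr hD.qK) hx
  refine ⟨z'⁻¹ * k * z * k', ?_, ?_, ?_⟩
  · have e : z'⁻¹ * k * z = (z'⁻¹ * z) * (z⁻¹ * k * z⁻¹⁻¹) := by group
    rw [e]
    exact (kerW M W).mul_mem ((kerW M W).mul_mem hzz (kerW_conj hk z⁻¹)) hk'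
  · rw [mul_smul, hk'b, mul_smul, mul_smul, hzu, ← hzu', inv_smul_smul]
  · rw [mul_smul, hk'v, mul_smul, mul_smul, smul_inv_smul]

/-- The core of the argument: the stabiliser of `b` fixes `r • b`. -/
theorem stab_fixes (hna : ¬ ∀ k ∈ kerW M W, k * q * k⁻¹ ∈ Subgroup.zpowers q)
    (hrP : r ∈ P) (hrp : r ^ p = 1) (hrw : r • β b ≠ β b)
    {e₀ : M} (he : e₀ ∈ kerW M W) (heb : e₀ • b = b) (hnc : ¬ Commute e₀ q)
    (heq : e₀ * q * e₀⁻¹ ∈ Subgroup.zpowers q) (her : Commute e₀ r)
    (hprop : ∃ v, β v = r • β b ∧ v ∉ suborbit M W b (r • b)) :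
    ∀ k ∈ kerW M W, k • b = b → k • r • b = r • b := by
  classical
  have : Fintype Y := Fintype.ofFinite _
  have hp5 := (kernel_two_trans_base hS hD hna).1
  have hbij := pt_bijective hS hD hrp hrw
  have hpt0 : pt r q b (0 : ZMod p) (0 : ZMod p) = b := by simp [pt, pw_zero]
  have hpt1 : pt r q b (1 : ZMod p) (0 : ZMod p) = r • b := by simp [pt, pw_zero, pw_one]
  let D : Finset (ZMod p) := Finset.univ.filter fun x => pt r q b 1 x ∈ suborbit M W b (r • b)
  have hD0 : (0 : ZMod p) ∈ D :=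
    Finset.mem_filter.mpr ⟨Finset.mem_univ _, 1, (kerW M W).one_mem, one_smul _ _,
      by rw [one_smul, hpt1]⟩
  have hsub1 : ∀ i x : ZMod p, pt r q b i x ∈ suborbit M W b (r • b) → i = 1 := by
    rintro i x ⟨k, hk, -, hkv⟩
    have h1 := congrArg β hkv
    rw [hS.equiv, mem_kerW.mp hk, hS.equiv, β_pt hS hD, show i = 1 + (i - 1) by ring, pw_add hrp,
      mul_smul, pw_one] at h1
    exact sub_eq_zero.mp (pw_w_zero hS hD hrp hrw (MulAction.injective r h1).symm)
  have hDu : D ≠ Finset.univ := by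
    obtain ⟨v, hv, hvn⟩ := hprop
    obtain ⟨⟨i, x⟩, rfl⟩ := hbij.2 v
    intro h
    have hi : i = 1 := by
      have h1 : β (pt r q b i x) = r • β b := hv
      rw [β_pt hS hD, show i = 1 + (i - 1) by ring, pw_add hrp, mul_smul, pw_one] at h1
      exact sub_eq_zero.mp (pw_w_zero hS hD hrp hrw (MulAction.injective r h1))
    subst hi
    exact hvn (Finset.mem_filter.mp (h ▸ Finset.mem_univ x : x ∈ D)).2
  -- the multiplier
  obtain ⟨ε₀, hε₀⟩ := heq
  have hε₀ : q ^ ε₀ = e₀ * q * e₀⁻¹ := hε₀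
  set ε : ZMod p := (ε₀ : ZMod p) with hε
  have he₀x : ∀ x : ZMod p, e₀ * pw q x * e₀⁻¹ = pw q (ε * x) := by
    intro x
    rw [pw, ← conj_pow, ← hε₀, ← zpow_natCast, ← zpow_mul, ← pw_intCast hD.pow_p]
    congr 1
    push_cast
    rw [ZMod.natCast_zmod_val]
  have hε1 : ε ≠ 1 := by
    intro h
    apply hnc
    have h1 := he₀x 1
    rw [h, mul_one, pw_one] at h1
    exact mul_inv_eq_iff_eq_mul.mp h1
  have he₀pt : ∀ i x : ZMod p, e₀ • pt r q b i x = pt r q b i (ε * x) := by
    intro i x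
    have h1 : Commute e₀ (pw r i) := her.pow_right _
    rw [pt, pt, ← mul_smul, ← mul_smul, h1.eq, mul_assoc, mul_smul,
      show e₀ * pw q x = pw q (ε * x) * e₀ from mul_inv_eq_iff_eq_mul.mp (he₀x x), mul_smul, heb]
  have hDε : ∀ x, x ∈ D → ε * x ∈ D := by
    intro x hx
    obtain ⟨k, hk, hkb, hkv⟩ := (Finset.mem_filter.mp hx).2
    exact Finset.mem_filter.mpr ⟨Finset.mem_univ _, e₀ * k, (kerW M W).mul_mem he hk,
      by rw [mul_smul, hkb, heb], by rw [mul_smul, hkv, he₀pt]⟩
  -- the relation in coordinates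
  have hrel : ∀ i y j x : ZMod p, Rel hS P r (pt r q b i y) (pt r q b j x) ↔ j = i + 1 ∧ x - y ∈ D := by
    intro i y j x
    constructor
    · rintro ⟨z, hz, hzu, hzv⟩
      obtain ⟨i', y', rfl⟩ := repP hS hD hrP hrp hrw hz
      have e0 : (pw r i' * pw q y') • b = pt r q b i' y' := by rw [mul_smul]; rfl
      rw [e0] at hzu
      obtain ⟨rfl, rfl⟩ := Prod.mk.injEq .. ▸ (hbij.1 (a₁ := (i', y')) (a₂ := (i, y)) hzu)
      have e : (pw r i' * pw q y') • pt r q b (j - i') (x - y') = pt r q b j x := by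
        rw [smul_pt hS hD hrP hrp, add_sub_cancel, add_sub_cancel]
      rw [← e, inv_smul_smul] at hzv
      have h1 := hsub1 _ _ hzv
      rw [h1] at hzv
      exact ⟨by rw [← h1, add_sub_cancel], Finset.mem_filter.mpr ⟨Finset.mem_univ _, hzv⟩⟩
    · rintro ⟨rfl, hd⟩
      refine ⟨pw r i * pw q y, P.mul_mem (pw_mem hrP i) (pw_mem hD.qP y), ?_, ?_⟩
      · rw [mul_smul]; rfl
      · have e : (pw r i * pw q y) • pt r q b 1 (x - y) = pt r q b (i + 1) x := by
          rw [smul_pt hS hD hrP hrp, add_sub_cancel]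
        rw [← e, inv_smul_smul]
        exact (Finset.mem_filter.mp hd).2
  -- the walks
  let e : ZMod p × ZMod p ≃ Y := Equiv.ofBijective _ hbij
  let F : ℕ → Y → ℕ := fun n => Nat.rec (fun v => if v = b then 1 else 0)
    (fun _ F' v => ∑ u, if Rel hS P r u v then F' u else 0) n
  have hFinv : ∀ n, ∀ k ∈ kerW M W, k • b = b → ∀ v, F n (k • v) = F n v := by
    intro n
    induction n with
    | zero =>
      intro k _ hkb v
      refine if_congr ?_ rfl rfl
      exact ⟨fun h => MulAction.injective k (h.trans hkb.symm), fun h => by rw [h, hkb]⟩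
    | succ n ih =>
      intro k hk hkb v
      refine (Fintype.sum_equiv (MulAction.toPerm k) _ _ fun u => ?_).symm
      rw [MulAction.toPerm_apply]
      refine if_congr ⟨fun h => Rel_smul hS hD hk h, fun h => ?_⟩ (ih k hk hkb u).symm rfl
      have h1 := Rel_smul hS hD ((kerW M W).inv_mem hk) h
      rwa [inv_smul_smul, inv_smul_smul] at h1
  have hsucc : ∀ (n : ℕ) (j x : ZMod p), F (n + 1) (pt r q b j x) =
      ∑ d ∈ D, F n (pt r q b (j - 1) (x - d)) := by
    intro n j x
    show (∑ u, if Rel hS P r u (pt r q b j x) then F n u else 0) = _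
    rw [← e.sum_comp, Fintype.sum_prod_type,
      Finset.sum_eq_single (j - 1) (fun i _ hi => Finset.sum_eq_zero fun y _ => if_neg fun h => hi ?_)
        (fun h => absurd (Finset.mem_univ _) h)]
    · rw [← (Equiv.subLeft x).sum_comp, ← Finset.sum_filter]
      refine Finset.sum_congr ?_ fun d _ => rfl
      ext d
      simp only [Finset.mem_filter, Finset.mem_univ, true_and, e, Equiv.ofBijective_apply,
        Equiv.subLeft_apply]
      rw [hrel]
      simp
    · rw [((hrel i y j x).mp h).1, add_sub_cancel_right]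
  have hoff : ∀ (n : ℕ) (j x : ZMod p), j ≠ ((n : ℕ) : ZMod p) → F n (pt r q b j x) = 0 := by
    intro n
    induction n with
    | zero =>
      intro j x hj
      refine if_neg fun h => hj ?_
      simpa using congrArg Prod.fst (hbij.1 (a₁ := (j, x)) (a₂ := (0, 0)) (h.trans hpt0.symm))
    | succ n ih =>
      intro j x hj
      rw [hsucc]
      exact Finset.sum_eq_zero fun d _ => ih _ _ fun h => hj (by rw [Nat.cast_succ, ← h]; ring)
  -- character sums
  have hchar : ∀ ζ : ℂ, IsPrimitiveRoot ζ p → ∀ n : ℕ,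
      ∑ x : ZMod p, Nat.cast (R := ℂ) (F n (pt r q b (n : ZMod p) x)) * pw ζ x = (∑ d ∈ D, pw ζ d) ^ n := by
    intro ζ hζ n
    induction n with
    | zero =>
      have h1 : ∀ x : ZMod p, F 0 (pt r q b ((0 : ℕ) : ZMod p) x) = if x = 0 then 1 else 0 := by
        intro x
        refine if_congr ?_ rfl rfl
        rw [Nat.cast_zero]
        refine ⟨fun h => ?_, fun h => by rw [h, hpt0]⟩
        simpa using congrArg Prod.snd (hbij.1 (a₁ := ((0 : ZMod p), x)) (a₂ := (0, 0)) (h.trans hpt0.symm))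
      simp only [h1]
      simp [pw_zero]
    | succ n ih =>
      simp only [hsucc, Nat.cast_succ, add_sub_cancel_right, Nat.cast_sum, Finset.sum_mul]
      rw [Finset.sum_comm, pow_succ, ← ih, Finset.mul_sum]
      refine Finset.sum_congr rfl fun d _ => ?_
      rw [Finset.sum_mul]
      refine Fintype.sum_equiv (Equiv.subRight d) _ _ fun x => ?_
      rw [Equiv.subRight_apply, mul_assoc, ← pw_add hζ.pow_eq_one, sub_add_cancel]
  -- the last row is constant away from zero
  have hrow : ∀ x y : ZMod p, x ≠ 0 → y ≠ 0 →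
      ∀ n, F n (pt r q b 0 x) = F n (pt r q b 0 y) ∧
        ∃ k ∈ kerW M W, k • b = b ∧ k • pt r q b 0 x = pt r q b 0 y := by
    intro x y hx hy n
    have hb0 : ∀ z : ZMod p, β (pt r q b 0 z) = β b := fun z => by rw [β_pt hS hD, pw_zero, one_smul]
    have hne : ∀ z : ZMod p, z ≠ 0 → pt r q b 0 z ≠ b := fun z hz h => hz (by
      simpa using congrArg Prod.snd (hbij.1 (a₁ := ((0 : ZMod p), z)) (a₂ := (0, 0)) (h.trans hpt0.symm)))
    obtain ⟨k, hk, hkb, hkxy⟩ := kernel_two_trans hS hD hna (hb0 x) (hb0 y) (hne x hx) (hne y hy)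
    exact ⟨by rw [← hkxy, hFinv n k hk hkb], k, hk, hkb, hkxy⟩
  have hβ : ∀ ζ : ℂ, IsPrimitiveRoot ζ p → (∑ d ∈ D, pw ζ d) ^ p =
      Nat.cast (R := ℂ) (F p (pt r q b (0 : ZMod p) (0 : ZMod p))) - Nat.cast (R := ℂ) (F p (pt r q b (0 : ZMod p) (1 : ZMod p))) := by
    intro ζ hζ
    rw [← hchar ζ hζ p, ZMod.natCast_self]
    have h1 : ∀ x : ZMod p, Nat.cast (R := ℂ) (F p (pt r q b (0 : ZMod p) x)) * pw ζ x =
        Nat.cast (R := ℂ) (F p (pt r q b (0 : ZMod p) (1 : ZMod p))) * pw ζ x +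
          (if x = 0 then Nat.cast (R := ℂ) (F p (pt r q b (0 : ZMod p) (0 : ZMod p))) - Nat.cast (R := ℂ) (F p (pt r q b (0 : ZMod p) (1 : ZMod p))) else 0) := by
      intro x
      by_cases hx : x = 0
      · rw [if_pos hx, hx, pw_zero]; ring
      · rw [if_neg hx, (hrow x 1 hx one_ne_zero p).1, add_zero]
    simp [h1, Finset.sum_add_distrib, ← Finset.mul_sum, sum_pw hζ]
  -- symmetry
  obtain ⟨ζ, hζ⟩ : ∃ ζ : ℂ, IsPrimitiveRoot ζ p :=
    ⟨_, Complex.isPrimitiveRoot_exp p hS.prime.ne_zero⟩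
  have hneg : ∀ d : ZMod p, pw ζ (-d) = pw ζ⁻¹ d := fun d => by
    have h1 : pw ζ (-d) * pw ζ d = 1 := by rw [← pw_add hζ.pow_eq_one, neg_add_cancel, pw_zero]
    rw [show pw ζ⁻¹ d = (pw ζ d)⁻¹ from inv_pow ζ _]
    exact eq_inv_of_mul_eq_one_left h1
  obtain ⟨c, hc⟩ := reflect hζ D hD0 hDu (by
    simp only [hneg]
    rw [hβ ζ hζ, hβ ζ⁻¹ hζ.inv])
  have hc0 : c = 0 := by
    by_contra hcne
    apply hDu
    have hshift : ∀ n : ℕ, (n : ZMod p) * (c - ε * c) ∈ D := by
      intro n
      induction n with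
      | zero => simpa using hD0
      | succ n ih =>
        obtain ⟨y, hy, hyε⟩ : ∃ y ∈ D, ε * y = (n : ZMod p) * (c - ε * c) := by
          have himg : D.image (ε * ·) = D := by
            refine Finset.eq_of_subset_of_card_le ?_ (le_of_eq ?_)
            · intro z hz
              obtain ⟨y, hy, rfl⟩ := Finset.mem_image.mp hz
              exact hDε y hy
            · refine (Finset.card_image_of_injective _ (mul_right_injective₀ ?_)).symm
              intro h0
              have h1 := he₀x 1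
              rw [h0, zero_mul, pw_zero, pw_one, mul_inv_eq_one] at h1
              exact hnc (by rw [mul_eq_left.mp h1]; exact Commute.one_right e₀)
          rw [← himg] at ih
          exact Finset.mem_image.mp ih
        have h1 := (hc _).mp (hDε _ ((hc y).mp hy))
        rwa [show c - ε * (c - y) = ((n + 1 : ℕ) : ZMod p) * (c - ε * c) by
          push_cast; linear_combination hyε] at h1
    have hne : c - ε * c ≠ 0 := by
      rw [show c - ε * c = (1 - ε) * c by ring]
      exact mul_ne_zero (sub_ne_zero.mpr hε1.symm) hcne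
    rw [Finset.eq_univ_iff_forall]
    intro x
    have := hshift (x / (c - ε * c)).val
    rwa [ZMod.natCast_zmod_val, div_mul_cancel₀ _ hne] at this
  have hsym : ∀ x, x ∈ D ↔ -x ∈ D := fun x => by simpa [hc0] using hc x
  -- common neighbours
  let G : Y → ℕ := fun v => (Finset.univ.filter fun u => Rel hS P r b u ∧ Rel hS P r v u).card
  have hGs : ∀ s : ZMod p, G (pt r q b 0 s) = (D.filter fun d => d - s ∈ D).card := by
    intro s
    refine (Finset.card_bij (fun d _ => pt r q b 1 d) ?_ ?_ ?_).symm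
    · intro d hd
      obtain ⟨h1, h2⟩ := Finset.mem_filter.mp hd
      refine Finset.mem_filter.mpr ⟨Finset.mem_univ _, ?_, ?_⟩
      · have h3 := (hrel 0 0 1 d).mpr ⟨(zero_add 1).symm, by rwa [sub_zero]⟩
        obtain ⟨z, hz, hz1, hz2⟩ := h3
        exact ⟨z, hz, hz1.trans hpt0, hz2⟩
      · exact (hrel 0 s 1 d).mpr ⟨(zero_add 1).symm, h2⟩
    · intro d _ d' _ h
      simpa using congrArg Prod.snd (hbij.1 (a₁ := ((1 : ZMod p), d)) (a₂ := (1, d')) h)
    · intro u hu
      obtain ⟨-, h1, h2⟩ := Finset.mem_filter.mp hu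
      obtain ⟨⟨i, d⟩, rfl⟩ := hbij.2 u
      have h1 : Rel hS P r (pt r q b (0 : ZMod p) (0 : ZMod p)) (pt r q b i d) := by rw [hpt0]; exact h1
      obtain ⟨hi, hd1⟩ := (hrel 0 0 i d).mp h1
      obtain ⟨-, hd2⟩ := (hrel 0 s i d).mp h2
      rw [sub_zero] at hd1
      exact ⟨d, Finset.mem_filter.mpr ⟨hd1, hd2⟩, by rw [hi, zero_add]⟩
  have hDeq := symmetric_trivial (by omega) D hD0 hDu hsym fun s t hs ht => by
    obtain ⟨k, hk, hkb, hkst⟩ := (hrow s t hs ht 0).2
    rw [← hGs, ← hGs, ← hkst]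
    refine Finset.card_equiv (MulAction.toPerm k) fun u => ?_
    simp only [Finset.mem_filter, Finset.mem_univ, true_and, MulAction.toPerm_apply]
    constructor
    · rintro ⟨h1, h2⟩
      refine ⟨?_, Rel_smul hS hD hk h2⟩
      have h3 := Rel_smul hS hD hk h1
      rwa [hkb] at h3
    · rintro ⟨h1, h2⟩
      have hkb' : k⁻¹ • b = b := by rw [inv_smul_eq_iff, hkb]
      have h3 := Rel_smul hS hD ((kerW M W).inv_mem hk) h1
      have h4 := Rel_smul hS hD ((kerW M W).inv_mem hk) h2
      rw [hkb', inv_smul_smul] at h3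
      rw [inv_smul_smul, inv_smul_smul] at h4
      exact ⟨h3, h4⟩
  intro k hk hkb
  obtain ⟨⟨i, x⟩, hix⟩ := hbij.2 (k • r • b)
  have hix : pt r q b i x = k • r • b := hix
  have hmem : pt r q b i x ∈ suborbit M W b (r • b) := ⟨k, hk, hkb, hix.symm⟩
  have hi := hsub1 i x hmem
  subst hi
  have hx : x ∈ D := Finset.mem_filter.mpr ⟨Finset.mem_univ _, hmem⟩
  rw [hDeq, Finset.mem_singleton] at hx
  rw [← hix, hx, hpt1]

end Coordinates

/-- The nonaffine case yields a subgroup with few possible fixed sets of size `p`. -/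
theorem grid (hS : Setup p (M := M) β b) (hD : SylData p P q W)
    (hna : ¬ ∀ k ∈ kerW M W, k * q * k⁻¹ ∈ Subgroup.zpowers q) :
    ∃ R : Subgroup M, R ≤ stabilizer M b ∧ (fixSet Y R).ncard = p ∧ ∃ F₁ F₂ : Set Y,
      ∀ R' : Subgroup M, R' ≤ stabilizer M b → Nat.card R' = Nat.card R →
        (fixSet Y R').ncard = p → fixSet Y R' = F₁ ∨ fixSet Y R' = F₂ := by
  classical
  have hp5 := (kernel_two_trans_base hS hD hna).1
  obtain ⟨e₀, he, heb, hnc, heq, heq'⟩ := exists_normalizing hS hD hna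
  obtain ⟨r₀, hr₀P, hr₀p, her₀, hr₀w⟩ := exists_r hS hD hnc he heq heq'
  obtain ⟨u, v, hu, hvu, hvn⟩ := exists_intransitive hS hD hna
  obtain ⟨⟨i, x⟩, hix⟩ := (pt_bijective hS hD hr₀p hr₀w).2 u
  have hix : pt r₀ q b i x = u := hix
  have hi : i ≠ 0 := fun h => hu (by rw [← hix, β_pt hS hD, h, pw_zero, one_smul])
  set r := pw r₀ i with hr
  have hrP : r ∈ P := pw_mem hr₀P i
  have hrp : r ^ p = 1 := by rw [← pw_mul hr₀p, ZMod.natCast_self, zero_mul, pw_zero]
  have hrw : r • β b ≠ β b := fun h => hi (pw_w_zero hS hD hr₀p hr₀w h)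
  have hru : β u = r • β b := by rw [← hix, β_pt hS hD]
  have hprop : ∃ v, β v = r • β b ∧ v ∉ suborbit M W b (r • b) := by
    by_contra hno
    push Not at hno
    obtain ⟨k₁, hk₁, hk₁b, hk₁u⟩ := hno u hru
    obtain ⟨k₂, hk₂, hk₂b, hk₂v⟩ := hno v (hvu.trans hru)
    exact hvn ⟨k₂ * k₁⁻¹, (kerW M W).mul_mem hk₂ ((kerW M W).inv_mem hk₁),
      by rw [mul_smul, inv_smul_eq_iff.mpr hk₁b.symm, hk₂b],
      by rw [mul_smul, ← hk₁u, inv_smul_smul, hk₂v]⟩
  have hfix := stab_fixes hS hD hna hrP hrp hrw he heb hnc heq (her₀.pow_right _) hprop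
  have hpow : ∀ n : ℕ, ∀ k ∈ kerW M W, k • b = b → k • r ^ n • b = r ^ n • b := by
    intro n
    induction n with
    | zero => intro k _ hkb; simpa using hkb
    | succ n ih =>
      intro k hk hkb
      have h1 := ih (r⁻¹ * k * r⁻¹⁻¹) (kerW_conj hk r⁻¹)
        (by rw [inv_inv, mul_smul, mul_smul, hfix k hk hkb, inv_smul_smul])
      rw [inv_inv, mul_smul, mul_smul, inv_smul_eq_iff] at h1
      rwa [pow_succ', mul_smul]
  have hbij := pt_bijective hS hD hrp hrw
  have hptpow : ∀ j : ZMod p, pt r q b j 0 = r ^ j.val • b := fun j => by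
    rw [pt, pw_zero, one_smul]; rfl
  -- every point stabiliser fixes exactly one point of each block
  have honly : ∀ j y : ZMod p, (∀ k ∈ kerW M W, k • b = b → k • pt r q b j y = pt r q b j y) → y = 0 := by
    intro j y hall
    by_contra hy
    have hne : pw q y • b ≠ b := fun h => hy (pw_q_zero hS hD h)
    have hB : β (pw q y • b) = β b := by rw [hS.equiv, mem_kerW.mp (pw_mem hD.qK y)]
    obtain ⟨z, hz1, hz2, hz3⟩ := exists_third hS (by omega) b (pw q y • b)
    obtain ⟨k', hk', hk'b, hk'z⟩ := kernel_two_trans hS hD hna hB hz1 hne hz2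
    have hkfix : (pw r j * k' * (pw r j)⁻¹) • b = b := by
      have hj : (pw r j)⁻¹ = pw r (-j) :=
        inv_eq_of_mul_eq_one_right (by rw [← pw_add hrp, add_neg_cancel, pw_zero])
      rw [mul_smul, mul_smul, hj, show pw r (-j) • b = r ^ (-j).val • b from rfl,
        hpow _ k' hk' hk'b, show r ^ (-j).val = pw r (-j) from rfl, ← mul_smul, ← pw_add hrp,
        add_neg_cancel, pw_zero, one_smul]
    have h1 := hall _ (kerW_conj hk' (pw r j)) hkfix
    rw [pt, mul_smul, mul_smul, inv_smul_smul] at h1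
    have h2 := MulAction.injective (pw r j) h1
    exact hz3 (hk'z.symm.trans h2)
  set R := kerW M W ⊓ stabilizer M b with hR
  have hRfix : fixSet Y R = Set.range fun j : ZMod p => pt r q b j 0 := by
    ext z
    constructor
    · intro hz
      obtain ⟨⟨j, y⟩, rfl⟩ := hbij.2 z
      exact ⟨j, by rw [honly j y fun k hk hkb => hz k ⟨hk, hkb⟩]⟩
    · rintro ⟨j, rfl⟩ k ⟨hk, hkb⟩
      show k • pt r q b j 0 = pt r q b j 0
      rw [hptpow]
      exact hpow _ k hk hkb
  have hncard : (fixSet Y R).ncard = p := by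
    rw [hRfix, Set.ncard_range_of_injective, Nat.card_zmod]
    intro j j' h
    simpa using congrArg Prod.fst (hbij.1 (a₁ := (j, (0 : ZMod p))) (a₂ := (j', 0)) h)
  refine ⟨R, inf_le_right, hncard, fixSet Y R, {y | β y = β b}, fun R' hR' hcard hp' => ?_⟩
  -- transfer between fixed blocks
  have hcol : ∀ y : Y, ∀ w : W, ∃ z, β z = w ∧ (∀ k ∈ kerW M W, k • y = y → k • z = z) ∧
      ∀ z', β z' = w → (∀ k ∈ kerW M W, k • y = y → k • z' = z') → z' = z := by
    intro y w
    obtain ⟨x, hx, rfl⟩ := hD.transP hS b y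
    obtain ⟨y₁, hy₁⟩ : ∃ y₁, β y₁ = x⁻¹ • w := by
      have : Nonempty {y : Y // β y = x⁻¹ • w} := (Nat.card_pos_iff.mp (hS.fib _ ▸ hS.prime.pos)).1
      obtain ⟨⟨y, hy⟩⟩ := this
      exact ⟨y, hy⟩
    obtain ⟨⟨j, l⟩, rfl⟩ := hbij.2 y₁
    have hw : x • (pw r j • β b) = w := by
      rw [← β_pt hS hD j l]
      exact (inv_smul_eq_iff.mp hy₁.symm).symm
    refine ⟨x • pt r q b j 0, by rw [hS.equiv, β_pt hS hD, hw], ?_, ?_⟩
    · intro k hk hky
      have h1 := hpow j.val (x⁻¹ * k * x⁻¹⁻¹) (kerW_conj hk _)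
        (by rw [inv_inv, mul_smul, mul_smul, hky, inv_smul_smul])
      rw [← hptpow, inv_inv, mul_smul, mul_smul, inv_smul_eq_iff] at h1
      exact h1
    · intro z' hz' hfix'
      obtain ⟨⟨j', y'⟩, hz''⟩ := hbij.2 (x⁻¹ • z')
      have hz'' : pt r q b j' y' = x⁻¹ • z' := hz''
      have hjj : j' = j := by
        have h1 := congrArg β hz''
        rw [β_pt hS hD, hS.equiv, hz', ← hw, inv_smul_smul, show j' = j + (j' - j) by ring,
          pw_add hrp, mul_smul] at h1
        exact sub_eq_zero.mp (pw_w_zero hS hD hrp hrw (MulAction.injective _ h1))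
      have hy' : y' = 0 := by
        refine honly j' y' fun k hk hkb => ?_
        have h1 := hfix' (x * k * x⁻¹) (kerW_conj hk x) (by
          rw [mul_smul, mul_smul, inv_smul_smul, hkb])
        rw [mul_smul, mul_smul, ← hz'', smul_eq_iff_eq_inv_smul] at h1
        rw [hz''] at h1 ⊢
        exact h1
      rw [← hjj, ← hy', hz'', smul_inv_smul]
  choose col hcol1 hcol2 hcol3 using hcol
  let S' := fixSet Y R'
  let Wf : Set W := {w | ∀ r' ∈ R', r' • w = w}
  have hbW : β b ∈ Wf := fun r' hr' => by rw [← hS.equiv, mem_stabilizer_iff.mp (hR' hr')]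
  have hcolS : ∀ y ∈ S', ∀ w ∈ Wf, col y w ∈ S' := by
    intro y hy w hw r' hr'
    refine hcol3 y w _ (by rw [hS.equiv, hcol1, hw r' hr']) fun k hk hky => ?_
    have h1 := hcol2 y w (r'⁻¹ * k * r'⁻¹⁻¹) (kerW_conj hk r'⁻¹) (by
      rw [inv_inv, mul_smul, mul_smul, hy r' hr', hky, inv_smul_eq_iff]
      exact (hy r' hr').symm)
    rw [inv_inv, mul_smul, mul_smul, inv_smul_eq_iff] at h1
    exact h1
  have hW' : ∀ y ∈ S', β y ∈ Wf := fun y hy r' hr' => by rw [← hS.equiv, hy r' hr']
  have hcolback : ∀ y w w', β y = w' → col (col y w) w' = y := by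
    intro y w w' hyw
    symm
    refine hcol3 (col y w) w' y hyw fun k hk hkc => ?_
    -- the two points have the same stabiliser
    have hle : (stabilizer ↥(kerW M W) y : Subgroup ↥(kerW M W)) ≤ stabilizer ↥(kerW M W) (col y w) :=
      fun g hg => hcol2 y w g g.2 hg
    have heqc : Nat.card (stabilizer ↥(kerW M W) y) = Nat.card (stabilizer ↥(kerW M W) (col y w)) := by
      have hst : ∀ z : Y, Nat.card (stabilizer ↥(kerW M W) z) * p = Nat.card ↥(kerW M W) := by
        intro z
        rw [← Nat.card_congr (orbitProdStabilizerEquivGroup ↥(kerW M W) z), Nat.card_prod, mul_comm]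
        congr 1
        rw [← hS.fib (β z)]
        refine Nat.card_congr (Equiv.setCongr ?_)
        ext z'
        constructor
        · intro hz'
          obtain ⟨x, hx, hxz⟩ := hD.transQ hS z z' (Eq.symm hz')
          exact ⟨⟨x, (Subgroup.zpowers_le.mpr hD.qK) hx⟩, hxz⟩
        · rintro ⟨g, rfl⟩
          show β ((g : M) • z) = β z
          rw [hS.equiv, mem_kerW.mp g.2]
      exact Nat.eq_of_mul_eq_mul_right hS.prime.pos ((hst y).trans (hst (col y w)).symm)
    have heqs := Subgroup.eq_of_le_of_card_ge hle heqc.ge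
    have : (⟨k, hk⟩ : ↥(kerW M W)) ∈ stabilizer ↥(kerW M W) y := heqs ▸ (show (⟨k, hk⟩ : ↥(kerW M W)) ∈ stabilizer ↥(kerW M W) (col y w) from hkc)
    exact this
  have hprod : Nat.card S' = Nat.card {y : Y // y ∈ S' ∧ β y = β b} * Nat.card Wf := by
    rw [← Nat.card_prod]
    refine Nat.card_congr
      { toFun := fun y => (⟨col y (β b), hcolS y y.2 _ hbW, hcol1 _ _⟩, ⟨β (y : Y), hW' y y.2⟩)
        invFun := fun yw => ⟨col yw.1 yw.2, hcolS _ yw.1.2.1 _ yw.2.2⟩
        left_inv := fun y => Subtype.ext (hcolback _ _ _ rfl)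
        right_inv := fun yw => ?_ }
    refine Prod.ext (Subtype.ext ?_) (Subtype.ext (hcol1 _ _))
    exact hcolback _ _ _ yw.1.2.2
  rw [Nat.card_coe_set_eq, hp'] at hprod
  rcases (Nat.dvd_prime hS.prime).mp (Dvd.intro_left _ hprod.symm) with h1 | hpW
  · right
    refine Set.eq_of_subset_of_ncard_le (fun y hy => ?_) ?_ (Set.toFinite _)
    · obtain ⟨w, hw⟩ := Set.ncard_eq_one.mp ((Nat.card_coe_set_eq _).symm.trans h1)
      have e1 := hW' y hy
      have e2 := hbW
      rw [hw, Set.mem_singleton_iff] at e1 e2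
      exact e1.trans e2.symm
    · rw [hp', ← Nat.card_coe_set_eq]
      exact le_of_eq (hS.fib (β b))
  · left
    have hall : Wf = Set.univ := Set.eq_of_subset_of_ncard_le (Set.subset_univ _)
      (by rw [Set.ncard_univ, hS.cardW, ← Nat.card_coe_set_eq, hpW]) (Set.toFinite _)
    have hRR : R' = R := Subgroup.eq_of_le_of_card_ge (fun r' hr' => ⟨mem_kerW.mpr fun w =>
      ((Set.ext_iff.mp hall w).mpr trivial) r' hr', hR' hr'⟩) hcard.ge
    rw [hRR]

end Cfsg.Agent.Lib.DoublyPrimSq
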