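import Cfsg.Agent.Lib.DoublyPrimSq.Global
import Cfsg.Agent.Lib.DoublyPrimSq.Affine
import Cfsg.Agent.Lib.DoublyPrimSq.Grid

/-!
A doubly transitive group of even permutations on `p ^ 2 + 1` points, `p` odd, is doubly primitive.
-/

set_option autoImplicit false
set_option linter.unusedSectionVars false

namespace Cfsg.Agent.Lib.DoublyPrimSq

open MulAction
open scoped Classical

variable {G Ω : Type*} [Group G] [Finite G] [Fintype Ω] [MulAction G Ω] [FaithfulSMul G Ω] {p : ℕ}

/-- The local setting attached to a failure of double primitivity. -/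
theorem exists_setup (hp : p.Prime) (hΩ : Fintype.card Ω = p ^ 2 + 1)
    (h2 : IsMultiplyPretransitive G Ω 2) (a : Ω)
    (hnp : ¬ IsPreprimitive ↥(stabilizer G a) ↥(SubMulAction.ofStabilizer G a)) :
    ∃ (N : Subgroup ↥(stabilizer G a)) (β : ↥(SubMulAction.ofStabilizer G a) → ↥(stabilizer G a) ⧸ N)
      (b : ↥(SubMulAction.ofStabilizer G a)), Setup p (M := ↥(stabilizer G a)) β b := by
  have htr := ofStabilizer_trans h2 a
  have := stab_faithful (G := G) a
  have hY := card_ofStabilizer (G := G) a (p ^ 2) hΩ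
  have hnt : Nontrivial ↥(SubMulAction.ofStabilizer G a) := by
    rw [← Finite.one_lt_card_iff_nontrivial, hY]
    exact Nat.one_lt_pow two_ne_zero hp.one_lt
  obtain ⟨b⟩ : Nonempty ↥(SubMulAction.ofStabilizer G a) := inferInstance
  have hnc := fun h => hnp ((isCoatom_stabilizer_iff_preprimitive
    (G := ↥(stabilizer G a)) b).mp h)
  have hidx : (stabilizer ↥(stabilizer G a) b).index = p ^ 2 := by
    rw [index_stabilizer_of_transitive, hY]
  have hne : stabilizer ↥(stabilizer G a) b ≠ ⊤ := by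
    intro h
    rw [h, Subgroup.index_top] at hidx
    exact (Nat.one_lt_pow two_ne_zero hp.one_lt).ne hidx
  obtain ⟨N, hlt, hNtop⟩ : ∃ N, stabilizer ↥(stabilizer G a) b < N ∧ N ≠ ⊤ := by
    by_contra hno
    push Not at hno
    exact hnc ⟨hne, fun N hN => hno N hN⟩
  have hmul := Subgroup.relIndex_mul_index hlt.le
  rw [hidx] at hmul
  have hNidx : N.index = p := by
    obtain ⟨i, hi, hiN⟩ := (Nat.dvd_prime_pow hp).mp (Dvd.intro_left _ hmul)
    interval_cases i
    · rw [pow_zero] at hiN
      exact absurd (Subgroup.index_eq_one.mp hiN) hNtop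
    · rw [hiN, pow_one]
    · exfalso
      rw [hiN] at hmul
      have h1 : (stabilizer ↥(stabilizer G a) b).relIndex N = 1 :=
        Nat.eq_of_mul_eq_mul_right (pow_pos hp.pos 2) (by rw [hmul, one_mul])
      exact hlt.not_ge (Subgroup.relIndex_eq_one.mp h1)
  choose g hg using fun y => htr.exists_smul_eq b y
  let β : ↥(SubMulAction.ofStabilizer G a) → ↥(stabilizer G a) ⧸ N := fun y => QuotientGroup.mk (g y)
  have heq : ∀ (m : ↥(stabilizer G a)) y, β (m • y) = m • β y := by
    intro m y
    show (QuotientGroup.mk (g (m • y)) : ↥(stabilizer G a) ⧸ N) = QuotientGroup.mk (m * g y)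
    rw [QuotientGroup.eq]
    refine hlt.le ?_
    rw [mem_stabilizer_iff, mul_smul, mul_smul, hg, inv_smul_eq_iff, hg]
  have hW : Nat.card (↥(stabilizer G a) ⧸ N) = p := hNidx
  have hsame : ∀ w w', Nat.card {y // β y = w} = Nat.card {y // β y = w'} := by
    intro w w'
    obtain ⟨m, hm⟩ := exists_smul_eq ↥(stabilizer G a) w w'
    refine Nat.card_congr ((MulAction.toPerm m).subtypeEquiv fun y => ?_)
    rw [MulAction.toPerm_apply, heq, ← hm]
    exact ⟨fun h => by rw [h], fun h => MulAction.injective m h⟩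
  have hfib : ∀ w, Nat.card {y // β y = w} = p := by
    intro w
    have := Fintype.ofFinite (↥(stabilizer G a) ⧸ N)
    have h1 := Nat.card_congr (Equiv.sigmaFiberEquiv β)
    rw [Nat.card_sigma, Finset.sum_congr rfl fun w' _ => hsame w' w, Finset.sum_const, Finset.card_univ,
      ← Nat.card_eq_fintype_card, hW, smul_eq_mul, hY, pow_two] at h1
    exact Nat.eq_of_mul_eq_mul_left hp.pos h1
  exact ⟨N, β, b, ⟨hp, hY, htr, hW, heq, hfib, step_one hp hΩ h2 a β b hW heq hfib⟩⟩

theorem fixed_mod (hp : p.Prime) (hp2 : p ≠ 2) (hΩ : Fintype.card Ω = p ^ 2 + 1)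
    (heven : ∀ g : G, Equiv.Perm.sign (MulAction.toPerm g : Equiv.Perm Ω) = 1) : ∀ t : G, t * t = 1 → t ≠ 1 →
      (Finset.univ.filter fun x : Ω => t • x = x).card % 4 = 2 := by
  intro t ht ht1
  have h := fixed_mod_four ht ht1 (heven t)
  have hle : (Finset.univ.filter fun x : Ω => t • x = x).card ≤ Fintype.card Ω := Finset.card_le_univ _
  have h4 : p ^ 2 % 4 = 1 := by
    obtain ⟨k, hk⟩ := hp.odd_of_ne_two hp2
    rw [hk, show (2 * k + 1) ^ 2 = 4 * (k * k + k) + 1 by ring]
    omega
  omega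

theorem fixed_split (a : Ω) : ∀ m : ↥(stabilizer G a), (Finset.univ.filter fun x : Ω => (m : G) • x = x).card =
      {y : ↥(SubMulAction.ofStabilizer G a) | m • y = y}.ncard + 1 := by
  have := stab_faithful (G := G) a
  intro m
  rw [← Finset.card_erase_add_one (s := Finset.univ.filter fun x : Ω => (m : G) • x = x) (a := a)
    (Finset.mem_filter.mpr ⟨Finset.mem_univ _, m.2⟩),
    Set.ncard_eq_toFinset_card']
  congr 1
  symm
  refine Finset.card_bij (fun y _ => (y : Ω)) (fun y hy => ?_) (fun y _ z _ h => Subtype.ext h)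
    fun x hx => ?_
  · exact Finset.mem_erase.mpr ⟨y.2, Finset.mem_filter.mpr ⟨Finset.mem_univ _,
      congrArg Subtype.val (show m • y = y by simpa using hy)⟩⟩
  · obtain ⟨hxa, hxF⟩ := Finset.mem_erase.mp hx
    refine ⟨⟨x, hxa⟩, ?_, rfl⟩
    simp only [Set.mem_toFinset, Set.mem_ofPred_eq]
    exact Subtype.ext (Finset.mem_filter.mp hxF).2

theorem stab_props (hp : p.Prime) (hp2 : p ≠ 2) (hΩ : Fintype.card Ω = p ^ 2 + 1)
    (h2 : IsMultiplyPretransitive G Ω 2) (a : Ω)
    (heven : ∀ g : G, Equiv.Perm.sign (MulAction.toPerm g : Equiv.Perm Ω) = 1)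
    {N : Subgroup ↥(stabilizer G a)}
    {β : ↥(SubMulAction.ofStabilizer G a) → ↥(stabilizer G a) ⧸ N}
    {b : ↥(SubMulAction.ofStabilizer G a)} (hS : Setup p (M := ↥(stabilizer G a)) β b) :
    (∀ h : ↥(stabilizer G a), h • b = b → h * h = 1 → h ≠ 1 →
      {y : ↥(SubMulAction.ofStabilizer G a) | h • y = y}.ncard = 1) ∧
    (∀ s t : ↥(stabilizer G a), s • b = b → s * s = 1 → s ≠ 1 → t • b = b → t * t = 1 → t ≠ 1 → s = t) ∧ Nat.card (stabilizer ↥(stabilizer G a) b) ≤ p - 1 := by
  have := Fact.mk hp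
  have := Fintype.ofFinite G
  have := stab_faithful (G := G) a
  obtain ⟨P, q, hD⟩ := hS.exists_syl
  have hp3 : 3 ≤ p := by
    have := hp.two_le
    omega
  have hnp2 := fun R hR hfix F₁ F₂ h => no_pair hp hΩ h2 a b R hR hfix F₁ F₂ h
  have hmodf := fixed_mod hp hp2 hΩ heven
  have hsplit := fixed_split (G := G) a
  -- the kernel normalises `q`
  have hQ : ∀ k ∈ kerW ↥(stabilizer G a) (↥(stabilizer G a) ⧸ N), k * q * k⁻¹ ∈ Subgroup.zpowers q := by
    by_contra hna
    obtain ⟨R, hR, hfix, F₁, F₂, hall⟩ := grid hS hD hna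
    have := hnp2 R hR hfix F₁ F₂ hall
    have := (kernel_two_trans_base hS hD hna).1
    omega
  have hqnorm := q_normal hS hD hQ
  -- two possibilities for sets fixed by stabiliser elements
  have hclass : ∀ R : Subgroup ↥(stabilizer G a), R ≤ stabilizer ↥(stabilizer G a) b → R ≠ ⊥ → (fixSet ↥(SubMulAction.ofStabilizer G a) R).ncard = p → p ≤ 3 := by
    intro R hR hne hfix
    refine hnp2 R hR hfix {y | β y = β b} (fixSet ↥(SubMulAction.ofStabilizer G a) (kerW ↥(stabilizer G a) (↥(stabilizer G a) ⧸ N) ⊓ stabilizer ↥(stabilizer G a) b))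
      fun R' hR' hcard hfix' => classify hS hD hQ R' hR' (fun h => hne ?_) hfix'
    rw [h, Subgroup.card_bot] at hcard
    exact Subgroup.card_eq_one.mp hcard.symm
  -- centralising stabiliser elements
  have hC : ∀ h : ↥(stabilizer G a), h • b = b → Commute h q → h = 1 := by
    intro h hb hc
    by_cases hp5 : p = 3
    · -- degree ten
      have hsq : h * h = 1 := by
        refine hD.cent_fix hS (mem_kerW.mpr fun w => ?_) (hc.mul_left hc) (y := b)
          (by rw [mul_smul, hb, hb])
        by_cases hw : w = β b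
        · rw [hw, mul_smul, ← hS.equiv, hb, ← hS.equiv, hb]
        · by_contra hne
          have hw0 : h • β b = β b := by rw [← hS.equiv, hb]
          have h1 : h • w ≠ β b := fun e => hw (MulAction.injective h (e.trans hw0.symm))
          have h2' : h • w ≠ w := fun e => hne (by rw [mul_smul, e, e])
          have h3 : h • h • w ≠ β b := fun e => h1 (MulAction.injective h (e.trans hw0.symm))
          have h4 : h • h • w ≠ h • w := fun e => h2' (MulAction.injective h e)
          have h5 : ({β b, w, h • w, h • h • w} : Finset (↥(stabilizer G a) ⧸ N)).card = 4 := by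
            rw [mul_smul] at hne
            rw [Finset.card_insert_of_notMem, Finset.card_insert_of_notMem, Finset.card_insert_of_notMem,
              Finset.card_singleton]
            · simp [Ne.symm h4]
            · simp [Ne.symm h2', Ne.symm hne]
            · simp [Ne.symm hw, Ne.symm h1, Ne.symm h3]
          have := Fintype.ofFinite (↥(stabilizer G a) ⧸ N)
          have h6 := Finset.card_le_univ ({β b, w, h • w, h • h • w} : Finset (↥(stabilizer G a) ⧸ N))
          rw [h5, ← Nat.card_eq_fintype_card, hS.cardW, hp5] at h6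
          omega
      by_contra hne
      have hf := hmodf (h : G) (congrArg Subtype.val hsq) (fun e => hne (Subtype.ext e))
      rw [hsplit] at hf
      -- the fixed points consist of whole blocks
      have := Fintype.ofFinite (↥(stabilizer G a) ⧸ N)
      have hcount : {y : ↥(SubMulAction.ofStabilizer G a) | h • y = y}.ncard = (({y : ↥(SubMulAction.ofStabilizer G a) | h • y = y}.toFinset).image β).card * p := by
        rw [Set.ncard_eq_toFinset_card', Finset.card_eq_sum_card_image β]
        rw [Finset.sum_const_nat fun w hw => ?_]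
        obtain ⟨y, hy, rfl⟩ := Finset.mem_image.mp hw
        rw [← hS.fib (β y), Nat.card_eq_fintype_card, ← Fintype.card_coe]
        refine Fintype.card_congr (Equiv.subtypeEquivRight fun z => ?_)
        rw [Finset.mem_filter]
        refine ⟨fun h => h.2, fun hz => ⟨?_, hz⟩⟩
        simp only [Set.mem_toFinset, Set.mem_ofPred_eq] at hy ⊢
        exact fix_fibre_of_commute hS hD hc hy hz.symm
      have hle : {y : ↥(SubMulAction.ofStabilizer G a) | h • y = y}.ncard < p ^ 2 := by
        rw [← hS.card]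
        refine Set.ncard_lt_card fun e => hne (eq_of_smul_eq_smul (α := ↥(SubMulAction.ofStabilizer G a)) fun y => ?_)
        rw [one_smul]
        exact (Set.ext_iff.mp e y).mpr trivial
      have hpos : 0 < {y : ↥(SubMulAction.ofStabilizer G a) | h • y = y}.ncard := (Set.ncard_pos (Set.toFinite _)).mpr ⟨b, hb⟩
      subst hp5
      generalize (({y : ↥(SubMulAction.ofStabilizer G a) | h • y = y}.toFinset).image β).card = t at hcount
      omega
    · by_contra hne
      let R : Subgroup ↥(stabilizer G a) := stabilizer ↥(stabilizer G a) b ⊓ Subgroup.centralizer {q}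
      have hR1 : R ≠ ⊥ := fun e => hne (Subgroup.mem_bot.mp
        (e ▸ (⟨hb, Subgroup.mem_centralizer_singleton_iff.mpr hc⟩ : h ∈ R)))
      have hfix : fixSet ↥(SubMulAction.ofStabilizer G a) R = {y | β y = β b} := by
        ext y
        constructor
        · intro hy
          by_contra hyB
          exact hne (fix_outside hS hD (y := y)
            (fun h' hb' hc' => hy h' ⟨hb', Subgroup.mem_centralizer_singleton_iff.mpr hc'⟩) hyB h hb hc)
        · intro hy r hr
          exact fix_fibre_of_commute hS hD (Subgroup.mem_centralizer_singleton_iff.mp hr.2) hr.1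
            (Eq.symm hy)
      have hncard : (fixSet ↥(SubMulAction.ofStabilizer G a) R).ncard = p := by
        rw [hfix, ← Nat.card_coe_set_eq]
        exact hS.fib (β b)
      have := hclass R inf_le_left hR1 hncard
      have := hp.two_le
      rcases Nat.lt_or_ge p 4 with h4 | h4
      · interval_cases p <;> simp_all
      · omega
  -- the regular group is normal
  have hCP : ∀ m : ↥(stabilizer G a), Commute m q → m ∈ P := by
    intro m hm
    obtain ⟨x, hx, hxb⟩ := hD.transP hS b (m • b)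
    have h1 := hC (x⁻¹ * m) (by rw [mul_smul, ← hxb, inv_smul_smul])
      ((show Commute x q from hD.comm hp hx hD.qP).inv_left.mul_left hm)
    rwa [← inv_mul_eq_one.mp h1]
  have hPn : ∀ m : ↥(stabilizer G a), ∀ x ∈ P, m * x * m⁻¹ ∈ P := by
    intro m x hx
    apply hCP
    obtain ⟨i, hi⟩ := hqnorm m⁻¹
    have hi : q ^ i = m⁻¹ * q * m := by rw [show q ^ i = _ from hi, inv_inv]
    have h1 : Commute x (m⁻¹ * q * m) := hi ▸ (show Commute x q from hD.comm hp hx hD.qP).zpow_right i
    calc m * x * m⁻¹ * q = m * (x * (m⁻¹ * q * m)) * m⁻¹ := by group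
      _ = m * ((m⁻¹ * q * m) * x) * m⁻¹ := by rw [h1.eq]
      _ = q * (m * x * m⁻¹) := by group
  -- involutions of the stabiliser
  have hinvfix : ∀ h : ↥(stabilizer G a), h • b = b → h * h = 1 → h ≠ 1 → {y : ↥(SubMulAction.ofStabilizer G a) | h • y = y}.ncard = 1 := by
    intro h hb hsq hne
    have hc := fix_stab_card hS hD hPn hb
    have hd : {y : ↥(SubMulAction.ofStabilizer G a) | h • y = y}.ncard ∣ p ^ 2 := by
      rw [hc, ← hD.cardP]
      exact Subgroup.card_dvd_of_le inf_le_left
    obtain ⟨i, hi, hcard⟩ := (Nat.dvd_prime_pow hp).mp hd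
    interval_cases i
    · rwa [pow_zero] at hcard
    · exfalso
      rw [pow_one] at hcard
      have hf : fixSet ↥(SubMulAction.ofStabilizer G a) (Subgroup.zpowers h) = {y : ↥(SubMulAction.ofStabilizer G a) | h • y = y} := by
        ext y
        constructor
        · exact fun hy => hy h (Subgroup.mem_zpowers h)
        · intro hy r hr
          exact Subgroup.zpowers_le.mpr (show h ∈ stabilizer ↥(stabilizer G a) y from hy) hr
      have h3 := hclass (Subgroup.zpowers h) (Subgroup.zpowers_le.mpr hb)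
        (fun e => hne (Subgroup.zpowers_eq_bot.mp e)) (by rw [hf, hcard])
      have hf4 := hmodf (h : G) (congrArg Subtype.val hsq) (fun e => hne (Subtype.ext e))
      rw [hsplit, hcard] at hf4
      omega
    · exfalso
      apply hne
      refine eq_of_smul_eq_smul (α := ↥(SubMulAction.ofStabilizer G a)) fun y => ?_
      rw [one_smul]
      have : {y : ↥(SubMulAction.ofStabilizer G a) | h • y = y} = Set.univ := Set.eq_of_subset_of_ncard_le (Set.subset_univ _)
        (by rw [hcard, Set.ncard_univ, hS.card]) (Set.toFinite _)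
      exact (Set.ext_iff.mp this y).mpr trivial
  have hinvert : ∀ h : ↥(stabilizer G a), h • b = b → h * h = 1 → h ≠ 1 → ∀ x ∈ P, h * x * h⁻¹ = x⁻¹ := by
    intro h hb hsq hne x hx
    have hcard := fix_stab_card hS hD hPn hb
    rw [hinvfix h hb hsq hne] at hcard
    have htriv : ∀ z ∈ P, h * z * h⁻¹ = z → z = 1 := fun z hz hzc => by
      have hmem : z ∈ P ⊓ Subgroup.centralizer ({h} : Set ↥(stabilizer G a)) :=
        ⟨hz, Subgroup.mem_centralizer_singleton_iff.mpr (mul_inv_eq_iff_eq_mul.mp hzc).symm⟩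
      rw [Subgroup.card_eq_one.mp hcard.symm, Subgroup.mem_bot] at hmem
      exact hmem
    let f : P → P := fun z => ⟨(z : ↥(stabilizer G a))⁻¹ * (h * z * h⁻¹), P.mul_mem (P.inv_mem z.2) (hPn h z z.2)⟩
    have hf : Function.Injective f := by
      intro z z' e
      have e' : (z : ↥(stabilizer G a))⁻¹ * (h * z * h⁻¹) = (z' : ↥(stabilizer G a))⁻¹ * (h * z' * h⁻¹) := congrArg Subtype.val e
      refine Subtype.ext (mul_inv_eq_one.mp (htriv ((z : ↥(stabilizer G a)) * (z' : ↥(stabilizer G a))⁻¹)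
        (P.mul_mem z.2 (P.inv_mem z'.2)) ?_))
      calc h * ((z : ↥(stabilizer G a)) * (z' : ↥(stabilizer G a))⁻¹) * h⁻¹
          = z * ((z : ↥(stabilizer G a))⁻¹ * (h * z * h⁻¹)) * ((z' : ↥(stabilizer G a))⁻¹ * (h * z' * h⁻¹))⁻¹ * (z' : ↥(stabilizer G a))⁻¹ := by group
        _ = (z : ↥(stabilizer G a)) * (z' : ↥(stabilizer G a))⁻¹ := by rw [e', mul_inv_cancel_right]
    obtain ⟨z, hz⟩ := (Finite.injective_iff_surjective.mp hf) ⟨x, hx⟩
    have hz : (z : ↥(stabilizer G a))⁻¹ * (h * z * h⁻¹) = x := congrArg Subtype.val hz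
    have hh : h⁻¹ = h := inv_eq_of_mul_eq_one_right hsq
    rw [← hz, hh]
    calc h * ((z : ↥(stabilizer G a))⁻¹ * (h * z * h)) * h = h * (z : ↥(stabilizer G a))⁻¹ * h * z * (h * h) := by group
      _ = h⁻¹ * (z : ↥(stabilizer G a))⁻¹ * h⁻¹ * z := by rw [hsq, mul_one, hh]
      _ = _ := by group
  have huniq : ∀ s t : ↥(stabilizer G a), s • b = b → s * s = 1 → s ≠ 1 → t • b = b → t * t = 1 → t ≠ 1 → s = t := by
    intro s t hsb hs hs1 htb ht ht1
    have hc : Commute (t⁻¹ * s) q := by
      refine mul_inv_eq_iff_eq_mul.mp ?_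
      calc t⁻¹ * s * q * (t⁻¹ * s)⁻¹ = t⁻¹ * (s * q * s⁻¹) * t := by group
        _ = t⁻¹ * (t * q * t⁻¹) * t := by rw [hinvert s hsb hs hs1 q hD.qP, hinvert t htb ht ht1 q hD.qP]
        _ = q := by group
    exact (inv_mul_eq_one.mp (hC _ (by rw [mul_smul, hsb, inv_smul_eq_iff, htb]) hc)).symm
  -- the size of the two-point stabiliser
  have hH : Nat.card (stabilizer ↥(stabilizer G a) b) ≤ p - 1 := by
    let f : stabilizer ↥(stabilizer G a) b → {x : Subgroup.zpowers q // x ≠ 1} := fun h =>
      ⟨⟨(h : ↥(stabilizer G a)) * q * (h : ↥(stabilizer G a))⁻¹, hqnorm h⟩, fun e => by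
        have e' : (h : ↥(stabilizer G a)) * q * (h : ↥(stabilizer G a))⁻¹ = 1 := congrArg Subtype.val e
        rw [mul_inv_eq_one, mul_eq_left] at e'
        have := hD.qord
        rw [e', orderOf_one] at this
        exact hp.one_lt.ne this⟩
    have hf : Function.Injective f := by
      intro h h' e
      have e' : (h : ↥(stabilizer G a)) * q * (h : ↥(stabilizer G a))⁻¹ = (h' : ↥(stabilizer G a)) * q * (h' : ↥(stabilizer G a))⁻¹ :=
        congrArg (fun x : {x : Subgroup.zpowers q // x ≠ 1} => (x.1 : ↥(stabilizer G a))) e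
      refine Subtype.ext (inv_mul_eq_one.mp (hC _ ?_ ?_)).symm
      · rw [mul_smul, mem_stabilizer_iff.mp h.2, inv_smul_eq_iff, mem_stabilizer_iff.mp h'.2]
      · refine mul_inv_eq_iff_eq_mul.mp ?_
        calc (h' : ↥(stabilizer G a))⁻¹ * h * q * ((h' : ↥(stabilizer G a))⁻¹ * h)⁻¹ = (h' : ↥(stabilizer G a))⁻¹ * ((h : ↥(stabilizer G a)) * q * (h : ↥(stabilizer G a))⁻¹) * h' := by group
          _ = (h' : ↥(stabilizer G a))⁻¹ * ((h' : ↥(stabilizer G a)) * q * (h' : ↥(stabilizer G a))⁻¹) * h' := by rw [e']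
          _ = q := by group
    have h1 := Nat.card_le_card_of_injective f hf
    have h2' : Nat.card {x : Subgroup.zpowers q // x ≠ 1} = p - 1 := by
      have := Fintype.ofFinite (Subgroup.zpowers q)
      rw [Nat.card_eq_fintype_card, Fintype.card_subtype_compl, Fintype.card_subtype_eq,
        ← Nat.card_eq_fintype_card, Nat.card_zpowers, hD.qord]
    omega
  exact ⟨hinvfix, huniq, hH⟩

theorem even_case (hp : p.Prime) (hp2 : p ≠ 2) (hΩ : Fintype.card Ω = p ^ 2 + 1)
    (h2 : IsMultiplyPretransitive G Ω 2) (a : Ω)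
    (hnp : ¬ IsPreprimitive ↥(stabilizer G a) ↥(SubMulAction.ofStabilizer G a))
    (heven : ∀ g : G, Equiv.Perm.sign (MulAction.toPerm g : Equiv.Perm Ω) = 1) : False := by
  have := Fact.mk hp
  have := Fintype.ofFinite G
  obtain ⟨N, β, b, hS⟩ := exists_setup hp hΩ h2 a hnp
  have := stab_faithful (G := G) a
  have hp3 : 3 ≤ p := by
    have := hp.two_le
    omega
  obtain ⟨hinvfix, huniq, hH⟩ := stab_props hp hp2 hΩ h2 a heven hS
  have hmodf := fixed_mod hp hp2 hΩ heven
  have hsplit := fixed_split (G := G) a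
  -- involutions of the group
  have hab : a ≠ (b : Ω) := fun e => b.2 e.symm
  have hconj : ∀ t : G, t * t = 1 → t ≠ 1 → ∀ x y : Ω, x ≠ y → t • x = x → t • y = y →
      ∃ g : G, g • x = a ∧ g • y = (b : Ω) ∧ ∃ h : ↥(stabilizer G a), (h : G) = g * t * g⁻¹ ∧ h • b = b ∧
        h * h = 1 ∧ h ≠ 1 := by
    intro t ht ht1 x y hxy hx hy
    obtain ⟨g, hgx, hgy⟩ := MulAction.is_two_pretransitive_iff.mp h2 hxy hab
    refine ⟨g, hgx, hgy, ⟨g * t * g⁻¹, by
      rw [mem_stabilizer_iff, mul_smul, mul_smul, ← hgx, inv_smul_smul, hx]⟩, rfl, Subtype.ext ?_,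
      Subtype.ext ?_, fun e => ht1 ?_⟩
    · show (g * t * g⁻¹) • (b : Ω) = b
      rw [mul_smul, mul_smul, ← hgy, inv_smul_smul, hy]
    · show g * t * g⁻¹ * (g * t * g⁻¹) = 1
      rw [show g * t * g⁻¹ * (g * t * g⁻¹) = g * (t * t) * g⁻¹ by group, ht, mul_one, mul_inv_cancel]
    · have e' : g * t * g⁻¹ = 1 := congrArg Subtype.val e
      rwa [mul_inv_eq_one, mul_eq_left] at e'
  have hftwo : ∀ t : G, t * t = 1 → t ≠ 1 → (Finset.univ.filter fun x : Ω => t • x = x).card = 2 := by
    intro t ht ht1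
    have hm := hmodf t ht ht1
    obtain ⟨x, hx, y, hy, hxy⟩ := Finset.one_lt_card.mp
      (show 1 < (Finset.univ.filter fun x : Ω => t • x = x).card by omega)
    obtain ⟨g, -, -, h, hh, hhb, hhh, hh1⟩ :=
      hconj t ht ht1 x y hxy (Finset.mem_filter.mp hx).2 (Finset.mem_filter.mp hy).2
    have h1 := hsplit h
    rw [hinvfix h hhb hhh hh1] at h1
    refine Eq.trans ?_ h1
    rw [hh]
    refine Finset.card_equiv (MulAction.toPerm g) fun z => ?_
    simp only [Finset.mem_filter, Finset.mem_univ, true_and, MulAction.toPerm_apply, mul_smul,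
      inv_smul_smul, smul_left_cancel_iff]
  obtain ⟨t₀, ht₀, ht₀1⟩ : ∃ t : G, t * t = 1 ∧ t ≠ 1 := by
    have := Fact.mk Nat.prime_two
    obtain ⟨g, hga, hgb⟩ := MulAction.is_two_pretransitive_iff.mp h2 hab hab.symm
    have hg2 : (2 : ℕ) ∣ Nat.card G := by
      have heven' : Even (orderOf g) := by
        by_contra ho
        rw [Nat.not_even_iff_odd] at ho
        obtain ⟨k, hk⟩ := ho
        have hgg : ∀ j : ℕ, g ^ (2 * j) • a = a := by
          intro j
          induction j with
          | zero => simp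
          | succ j ih => rw [mul_add, mul_one, pow_add, pow_two, mul_smul, mul_smul, hga, hgb, ih]
        have h1 := hgg k
        have h2' : g • g ^ (2 * k) • a = a := by
          rw [← mul_smul, ← pow_succ', ← hk, pow_orderOf_eq_one, one_smul]
        rw [h1, hga] at h2'
        exact hab h2'.symm
      exact (even_iff_two_dvd.mp heven').trans (orderOf_dvd_natCard g)
    obtain ⟨t, ht⟩ := exists_prime_orderOf_dvd_card' 2 hg2
    exact ⟨t, by rw [← pow_two, ← ht, pow_orderOf_eq_one], fun e => by rw [e, orderOf_one] at ht; omega⟩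
  -- counting
  let Inv : Finset G := Finset.univ.filter fun t => t * t = 1 ∧ t ≠ 1
  have hmemI : ∀ t, t ∈ Inv ↔ t * t = 1 ∧ t ≠ 1 := fun t => by simp [Inv]
  obtain ⟨h₀, hh₀b, hh₀, hh₀1⟩ : ∃ h : ↥(stabilizer G a), h • b = b ∧ h * h = 1 ∧ h ≠ 1 := by
    have hm := hmodf t₀ ht₀ ht₀1
    obtain ⟨x, hx, y, hy, hxy⟩ := Finset.one_lt_card.mp
      (show 1 < (Finset.univ.filter fun x : Ω => t₀ • x = x).card by omega)
    obtain ⟨g, -, -, h, -, h1, h2', h3⟩ :=
      hconj t₀ ht₀ ht₀1 x y hxy (Finset.mem_filter.mp hx).2 (Finset.mem_filter.mp hy).2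
    exact ⟨h, h1, h2', h3⟩
  have hpairs : ∀ q ∈ (Finset.univ : Finset Ω).offDiag,
      (Inv.filter fun t => t • q.1 = q.1 ∧ t • q.2 = q.2).card = 1 := by
    intro q hq
    have hq' : q.1 ≠ q.2 := (Finset.mem_offDiag.mp hq).2.2
    obtain ⟨g, hgx, hgy⟩ := MulAction.is_two_pretransitive_iff.mp h2 hq' hab
    rw [Finset.card_eq_one]
    refine ⟨g⁻¹ * (h₀ : G) * g, Finset.eq_singleton_iff_unique_mem.mpr ⟨?_, ?_⟩⟩
    · refine Finset.mem_filter.mpr ⟨(hmemI _).mpr ⟨?_, ?_⟩, ?_, ?_⟩
      · rw [show g⁻¹ * (h₀ : G) * g * (g⁻¹ * (h₀ : G) * g) = g⁻¹ * ((h₀ : G) * h₀) * g by group,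
          show (h₀ : G) * h₀ = 1 from congrArg Subtype.val hh₀, mul_one, inv_mul_cancel]
      · intro e
        rw [mul_assoc, inv_mul_eq_one, eq_comm, mul_eq_right] at e
        exact hh₀1 (Subtype.ext e)
      · rw [mul_smul, mul_smul, hgx, mem_stabilizer_iff.mp h₀.2, inv_smul_eq_iff, hgx]
      · rw [mul_smul, mul_smul, hgy, show (h₀ : G) • (b : Ω) = b from congrArg Subtype.val hh₀b,
          inv_smul_eq_iff, hgy]
    · intro t ht
      obtain ⟨htI, htx, hty⟩ := Finset.mem_filter.mp ht
      obtain ⟨ht2, ht1⟩ := (hmemI t).mp htI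
      have hta : g * t * g⁻¹ ∈ stabilizer G a := by
        rw [mem_stabilizer_iff, mul_smul, mul_smul, ← hgx, inv_smul_smul, htx]
      have hh := huniq ⟨_, hta⟩ h₀ (Subtype.ext (by
          show (g * t * g⁻¹) • (b : Ω) = b
          rw [mul_smul, mul_smul, ← hgy, inv_smul_smul, hty]))
        (Subtype.ext (by
          show g * t * g⁻¹ * (g * t * g⁻¹) = 1
          rw [show g * t * g⁻¹ * (g * t * g⁻¹) = g * (t * t) * g⁻¹ by group, ht2, mul_one, mul_inv_cancel]))
        (fun e => ht1 (by
          have e' : g * t * g⁻¹ = 1 := congrArg Subtype.val e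
          rwa [mul_inv_eq_one, mul_eq_left] at e'))
        hh₀b hh₀ hh₀1
      rw [← show g * t * g⁻¹ = (h₀ : G) from congrArg Subtype.val hh]
      group
  have hI2 : Inv.card * 2 = Fintype.card Ω * (Fintype.card Ω - 1) := by
    have h := Finset.sum_card_bipartiteAbove_eq_sum_card_bipartiteBelow
      (fun (t : G) (q : Ω × Ω) => t • q.1 = q.1 ∧ t • q.2 = q.2)
      (s := Inv) (t := (Finset.univ : Finset Ω).offDiag)
    have h1 : ∀ t ∈ Inv, ((Finset.univ : Finset Ω).offDiag.bipartiteAbove
        (fun (t : G) (q : Ω × Ω) => t • q.1 = q.1 ∧ t • q.2 = q.2) t).card = 2 := by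
      intro t ht
      have e : (Finset.univ : Finset Ω).offDiag.bipartiteAbove
          (fun (t : G) (q : Ω × Ω) => t • q.1 = q.1 ∧ t • q.2 = q.2) t =
          (Finset.univ.filter fun x : Ω => t • x = x).offDiag := by
        ext q
        simp only [Finset.mem_bipartiteAbove, Finset.mem_offDiag, Finset.mem_univ, true_and,
          Finset.mem_filter]
        tauto
      rw [e, Finset.offDiag_card, hftwo t ((hmemI t).mp ht).1 ((hmemI t).mp ht).2]
    have h3 : ∀ q ∈ (Finset.univ : Finset Ω).offDiag, (Inv.bipartiteBelow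
        (fun (t : G) (q : Ω × Ω) => t • q.1 = q.1 ∧ t • q.2 = q.2) q).card = 1 := fun q hq => by
      rw [← hpairs q hq]; rfl
    rw [Finset.sum_congr rfl h1, Finset.sum_congr rfl h3, Finset.sum_const,
      Finset.sum_const, Finset.offDiag_card, Finset.card_univ, smul_eq_mul, smul_eq_mul, mul_one] at h
    rw [h, Nat.mul_sub_one]
  let Sw : Finset G := Inv.filter fun t => t • a = (b : Ω)
  have hI3 : Inv.card * (Fintype.card Ω - 2) = Fintype.card Ω * (Fintype.card Ω - 1) * Sw.card := by
    have h := Finset.sum_card_bipartiteAbove_eq_sum_card_bipartiteBelow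
      (fun (t : G) (q : Ω × Ω) => t • q.1 = q.2)
      (s := Inv) (t := (Finset.univ : Finset Ω).offDiag)
    have h1 : ∀ t ∈ Inv, ((Finset.univ : Finset Ω).offDiag.bipartiteAbove
        (fun (t : G) (q : Ω × Ω) => t • q.1 = q.2) t).card = Fintype.card Ω - 2 := by
      intro t ht
      rw [← hftwo t ((hmemI t).mp ht).1 ((hmemI t).mp ht).2, ← Finset.card_compl]
      refine Finset.card_bij (fun q _ => q.1) ?_ ?_ ?_
      · intro q hq
        obtain ⟨hq, htq⟩ := (Finset.mem_bipartiteAbove _).mp hq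
        simp only [Finset.mem_compl, Finset.mem_filter, Finset.mem_univ, true_and]
        rw [htq]
        exact (Finset.mem_offDiag.mp hq).2.2.symm
      · intro q hq q' hq' e
        refine Prod.ext e ?_
        rw [← ((Finset.mem_bipartiteAbove _).mp hq).2, ← ((Finset.mem_bipartiteAbove _).mp hq').2, e]
      · intro x hx
        simp only [Finset.mem_compl, Finset.mem_filter, Finset.mem_univ, true_and] at hx
        exact ⟨(x, t • x), (Finset.mem_bipartiteAbove _).mpr ⟨Finset.mem_offDiag.mpr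
          ⟨Finset.mem_univ _, Finset.mem_univ _, fun e => hx e.symm⟩, rfl⟩, rfl⟩
    have h3 : ∀ q ∈ (Finset.univ : Finset Ω).offDiag, (Inv.bipartiteBelow
        (fun (t : G) (q : Ω × Ω) => t • q.1 = q.2) q).card = Sw.card := by
      intro q hq
      obtain ⟨g, hgx, hgy⟩ :=
        MulAction.is_two_pretransitive_iff.mp h2 (Finset.mem_offDiag.mp hq).2.2 hab
      refine Finset.card_equiv (MulAut.conj g).toEquiv fun t => ?_
      simp only [Finset.mem_bipartiteBelow, Sw, Finset.mem_filter, hmemI, MulEquiv.toEquiv_eq_coe,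
        EquivLike.coe_coe, MulAut.conj_apply]
      refine and_congr (and_congr ?_ ?_) ?_
      · rw [show g * t * g⁻¹ * (g * t * g⁻¹) = g * (t * t) * g⁻¹ by group, mul_inv_eq_one, mul_eq_left]
      · rw [ne_eq, ne_eq, mul_inv_eq_one, mul_eq_left]
      · rw [mul_smul, mul_smul, inv_smul_eq_iff.mpr hgx.symm]
        exact ⟨fun h => by rw [h, hgy], fun h => MulAction.injective g (h.trans hgy.symm)⟩
    rw [Finset.sum_congr rfl h1, Finset.sum_congr rfl h3, Finset.sum_const, Finset.sum_const,
      Finset.offDiag_card, Finset.card_univ, smul_eq_mul, smul_eq_mul] at h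
    rw [h, Nat.mul_sub_one]
  have hSw : Sw.card ≤ p - 1 := by
    rcases Sw.eq_empty_or_nonempty with he | ⟨t₁, ht₁⟩
    · rw [he, Finset.card_empty]; omega
    refine le_trans ?_ hH
    obtain ⟨ht₁I, ht₁ab⟩ := Finset.mem_filter.mp ht₁
    have hswap : ∀ t ∈ Sw, t • (b : Ω) = a := by
      intro t ht
      obtain ⟨htI, htab⟩ := Finset.mem_filter.mp ht
      rw [← htab, ← mul_smul, ((hmemI t).mp htI).1, one_smul]
    let f : {t // t ∈ Sw} → stabilizer ↥(stabilizer G a) b := fun t =>
      ⟨⟨t₁ * (t : G), by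
          rw [mem_stabilizer_iff, mul_smul, (Finset.mem_filter.mp t.2).2, hswap t₁ ht₁]⟩,
        mem_stabilizer_iff.mpr (Subtype.ext (by
          show (t₁ * (t : G)) • (b : Ω) = b
          rw [mul_smul, hswap t t.2, ht₁ab]))⟩
    have hf : Function.Injective f := by
      intro t t' e
      exact Subtype.ext (mul_left_cancel (congrArg (fun z : stabilizer ↥(stabilizer G a) b => ((z : ↥(stabilizer G a)) : G)) e))
    have h1 := Nat.card_le_card_of_injective f hf
    rwa [Nat.card_eq_fintype_card, Fintype.card_coe] at h1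
  have hfinal : p ^ 2 - 1 = 2 * Sw.card := by
    have hpos : 0 < Fintype.card Ω * (Fintype.card Ω - 1) := by
      rw [hΩ]; simp [hp.pos]
    refine Nat.eq_of_mul_eq_mul_left hpos ?_
    calc Fintype.card Ω * (Fintype.card Ω - 1) * (p ^ 2 - 1)
        = (Inv.card * 2) * (Fintype.card Ω - 2) := by rw [hI2, hΩ]; rfl
      _ = 2 * (Inv.card * (Fintype.card Ω - 2)) := by ring
      _ = _ := by rw [hI3]; ring
  have : 3 * p ≤ p ^ 2 := by nlinarith
  omega

end Cfsg.Agent.Lib.DoublyPrimSq
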