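import Mathlib

/-!
Transitive groups of degree `p ^ 2` with blocks of size `p` and point stabilisers of order prime
to `p`.
-/

set_option autoImplicit false
set_option linter.unusedSectionVars false

namespace Cfsg.Agent.Lib.DoublyPrimSq

open MulAction

variable (p : ℕ) {M Y W : Type*} [Group M] [Finite M] [MulAction M Y] [FaithfulSMul M Y] [Finite Y]
  [MulAction M W] [Finite W]

/-- An imprimitive action of degree `p ^ 2` with point stabilisers of order prime to `p`. -/
structure Setup (β : Y → W) (b : Y) : Prop where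
  prime : p.Prime
  card : Nat.card Y = p ^ 2
  trans : IsPretransitive M Y
  cardW : Nat.card W = p
  equiv : ∀ (m : M) (y : Y), β (m • y) = m • β y
  fib : ∀ w : W, Nat.card {y : Y // β y = w} = p
  cop : ¬ p ∣ Nat.card (stabilizer M b)

/-- The kernel on the blocks. -/
def kerW (M W : Type*) [Group M] [MulAction M W] : Subgroup M := (MulAction.toPermHom M W).ker

theorem mem_kerW {M W : Type*} [Group M] [MulAction M W] {m : M} :
    m ∈ kerW M W ↔ ∀ w : W, m • w = w := by
  rw [kerW, MonoidHom.mem_ker, Equiv.ext_iff]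
  rfl

theorem kerW_conj {M W : Type*} [Group M] [MulAction M W] {m : M} (hm : m ∈ kerW M W) (g : M) :
    g * m * g⁻¹ ∈ kerW M W :=
  mem_kerW.mpr fun w => by rw [mul_smul, mul_smul, mem_kerW.mp hm, smul_inv_smul]

/-- The points fixed by a subgroup. -/
def fixSet (Y : Type*) {M : Type*} [Group M] [MulAction M Y] (R : Subgroup M) : Set Y :=
  {y | ∀ r ∈ R, r • y = y}

/-- A regular abelian Sylow subgroup and its intersection with the kernel. -/
structure SylData (P : Subgroup M) (q : M) (W : Type*) [MulAction M W] : Prop where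
  cardP : Nat.card P = p ^ 2
  qP : q ∈ P
  qK : q ∈ kerW M W
  qord : orderOf q = p

variable {p} {β : Y → W} {b : Y}

namespace Setup

theorem fact (hS : Setup p (M := M) β b) : Fact p.Prime := ⟨hS.prime⟩

theorem card_group (hS : Setup p (M := M) β b) (y : Y) :
    Nat.card M = p ^ 2 * Nat.card (stabilizer M y) := by
  have := hS.trans
  rw [← hS.card, ← index_stabilizer_of_transitive M y, Subgroup.index_mul_card]

theorem cop_at (hS : Setup p (M := M) β b) (y : Y) : ¬ p ∣ Nat.card (stabilizer M y) := by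
  have h := (hS.card_group b).symm.trans (hS.card_group y)
  have := Nat.eq_of_mul_eq_mul_left (pow_pos hS.prime.pos 2) h
  rw [← this]
  exact hS.cop

theorem free (hS : Setup p (M := M) β b) {x : M} {k : ℕ} (hx : x ^ (p ^ k) = 1) {y : Y}
    (hy : x • y = y) : x = 1 := by
  obtain ⟨i, hi, hord⟩ := (Nat.dvd_prime_pow hS.prime).mp (orderOf_dvd_of_pow_eq_one hx)
  rcases i with _ | i
  · exact orderOf_eq_one_iff.mp (by simpa using hord)
  · exfalso
    have h1 : orderOf x ∣ Nat.card (stabilizer M y) := by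
      have h2 : orderOf (⟨x, mem_stabilizer_iff.mpr hy⟩ : stabilizer M y) ∣ Nat.card (stabilizer M y) := orderOf_dvd_natCard _
      rwa [Subgroup.orderOf_mk] at h2
    exact hS.cop_at y ((dvd_pow_self p (Nat.succ_ne_zero i)).trans (hord ▸ h1))

theorem exists_syl (hS : Setup p (M := M) β b) : ∃ (P : Subgroup M) (q : M), SylData p P q W := by
  have := hS.fact
  obtain ⟨P, hP⟩ := Sylow.exists_subgroup_card_pow_prime p (n := 2)
    (Dvd.intro _ (hS.card_group b).symm : p ^ 2 ∣ Nat.card M)
  let f := (MulAction.toPermHom M W).comp P.subtype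
  have hk := f.ker.index_mul_card
  rw [Subgroup.index_ker, hP] at hk
  have hker : p ∣ Nat.card f.ker := by
    obtain ⟨i, hi, hcard⟩ := (Nat.dvd_prime_pow hS.prime).mp (Dvd.intro_left _ hk : Nat.card f.ker ∣ p ^ 2)
    rcases i with _ | i
    · exfalso
      rw [pow_zero] at hcard
      rw [hcard, mul_one] at hk
      have h1 : p ^ 2 ∣ Nat.factorial p := by
        rw [← hk, ← hS.cardW, ← Nat.card_perm]
        exact Subgroup.card_subgroup_dvd_card _
      have h2 : p ∣ Nat.factorial (p - 1) := by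
        rw [← Nat.mul_factorial_pred hS.prime.ne_zero, pow_two] at h1
        exact Nat.dvd_of_mul_dvd_mul_left hS.prime.pos h1
      have := (Nat.Prime.dvd_factorial hS.prime).mp h2
      have := hS.prime.pos
      omega
    · exact hcard ▸ dvd_pow_self p (Nat.succ_ne_zero i)
  obtain ⟨x, hx⟩ := exists_prime_orderOf_dvd_card' p hker
  exact ⟨P, ((x : P) : M), hP, (x : P).2, x.2,
    by rw [Subgroup.orderOf_coe, Subgroup.orderOf_coe, hx]⟩

/-- The action of the kernel on one block. -/
def fibre (hS : Setup p (M := M) β b) (w : W) : SubMulAction ↥(kerW M W) Y where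
  carrier := {y | β y = w}
  smul_mem' := fun k y hy => by
    show β ((k : M) • y) = w
    rw [hS.equiv, mem_kerW.mp k.2]
    exact hy

theorem card_fibre (hS : Setup p (M := M) β b) (w : W) : Nat.card ↥(hS.fibre w) = p := hS.fib w

end Setup

namespace SylData

variable {P : Subgroup M} {q : M}

theorem pow_p (hD : SylData p P q W) : q ^ p = 1 := hD.qord ▸ pow_orderOf_eq_one q

theorem comm (hD : SylData p P q W) (hp : p.Prime) {x y : M} (hx : x ∈ P) (hy : y ∈ P) :
    x * y = y * x := by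
  have := Fact.mk hp
  exact congrArg Subtype.val
    ((IsPGroup.isMulCommutative_of_card_eq_prime_sq hD.cardP).is_comm.comm ⟨x, hx⟩ ⟨y, hy⟩)

theorem pow_sq (hD : SylData p P q W) {x : M} (hx : x ∈ P) : x ^ (p ^ 2) = 1 := by
  have h : (⟨x, hx⟩ : P) ^ (p ^ 2) = 1 := hD.cardP ▸ pow_card_eq_one'
  simpa using congrArg Subtype.val h

theorem freeP (hD : SylData p P q W) (hS : Setup p (M := M) β b) {x : M} (hx : x ∈ P) {y : Y}
    (hy : x • y = y) : x = 1 := hS.free (hD.pow_sq hx) hy

theorem freeQ (hD : SylData p P q W) (hS : Setup p (M := M) β b) {x : M} (hx : x ∈ Subgroup.zpowers q)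
    {y : Y} (hy : x • y = y) : x = 1 :=
  hD.freeP hS ((Subgroup.zpowers_le.mpr hD.qP) hx) hy

theorem transP (hD : SylData p P q W) (hS : Setup p (M := M) β b) (y z : Y) :
    ∃ x ∈ P, x • y = z := by
  have hinj : Function.Injective (fun x : P => (x : M) • y) := fun x x' h => by
    have h1 : ((x' : M)⁻¹ * x) • y = y := by
      rw [mul_smul, show (x : M) • y = (x' : M) • y from h, inv_smul_smul]
    exact Subtype.ext (inv_mul_eq_one.mp (hD.freeP hS (P.mul_mem (P.inv_mem x'.2) x.2) h1)).symm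
  obtain ⟨x, hx⟩ := ((Nat.bijective_iff_injective_and_card _).mpr
    ⟨hinj, by rw [hD.cardP, hS.card]⟩).2 z
  exact ⟨x, x.2, hx⟩

theorem transQ (hD : SylData p P q W) (hS : Setup p (M := M) β b) (y z : Y) (h : β y = β z) :
    ∃ x ∈ Subgroup.zpowers q, x • y = z := by
  have hmem : ∀ x : Subgroup.zpowers q, β ((x : M) • y) = β y := fun x => by
    rw [hS.equiv, mem_kerW.mp ((Subgroup.zpowers_le.mpr hD.qK) x.2)]
  let f : Subgroup.zpowers q → {u : Y // β u = β y} := fun x => ⟨(x : M) • y, hmem x⟩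
  have hinj : Function.Injective f := fun x x' e => by
    have e' : (x : M) • y = (x' : M) • y := congrArg Subtype.val e
    exact Subtype.ext (inv_mul_eq_one.mp (hD.freeQ hS
      ((Subgroup.zpowers q).mul_mem ((Subgroup.zpowers q).inv_mem x'.2) x.2)
      (show ((x' : M)⁻¹ * x) • y = y by rw [mul_smul, e', inv_smul_smul]))).symm
  obtain ⟨x, hx⟩ := ((Nat.bijective_iff_injective_and_card f).mpr
    ⟨hinj, by rw [Nat.card_zpowers, hD.qord, hS.fib]⟩).2 ⟨z, h.symm⟩
  exact ⟨x, x.2, congrArg Subtype.val hx⟩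

theorem mem_zpowers (hD : SylData p P q W) (hS : Setup p (M := M) β b) {x : M} (hx : x ∈ P)
    (hxK : x ∈ kerW M W) : x ∈ Subgroup.zpowers q := by
  obtain ⟨u, hu, he⟩ := hD.transQ hS b (x • b) (by rw [hS.equiv, mem_kerW.mp hxK])
  have h1 := hD.freeP hS (P.mul_mem (P.inv_mem ((Subgroup.zpowers_le.mpr hD.qP) hu)) hx)
    (show (u⁻¹ * x) • b = b by rw [mul_smul, ← he, inv_smul_smul])
  rwa [← inv_mul_eq_one.mp h1]

/-- An element fixing a block pointwise and lying in the kernel is trivial. -/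
theorem eq_one_of_fix_fibre (hD : SylData p P q W) (hS : Setup p (M := M) β b) {k : M}
    (hk : k ∈ kerW M W) (w : W) (hfix : ∀ y, β y = w → k • y = y) : k = 1 := by
  have := hS.fact
  let L : Subgroup ↥(kerW M W) := (MulAction.toPermHom ↥(kerW M W) ↥(hS.fibre w)).ker
  have hkL : (⟨k, hk⟩ : ↥(kerW M W)) ∈ L :=
    MonoidHom.mem_ker.mpr (Equiv.ext fun y => Subtype.ext (hfix y y.2))
  have hLcop : ¬ p ∣ Nat.card L := by
    intro hd
    obtain ⟨x, hx⟩ := exists_prime_orderOf_dvd_card' p hd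
    obtain ⟨y, hy⟩ : ∃ y, β y = w := by
      have : Nonempty {y : Y // β y = w} := (Nat.card_pos_iff.mp (hS.fib w ▸ hS.prime.pos)).1
      obtain ⟨⟨y, hy⟩⟩ := this
      exact ⟨y, hy⟩
    have hfx : ((x : ↥(kerW M W)) : M) • y = y :=
      congrArg Subtype.val (Equiv.ext_iff.mp (MonoidHom.mem_ker.mp x.2) (⟨y, hy⟩ : ↥(hS.fibre w)))
    have hord : orderOf ((x : ↥(kerW M W)) : M) = p := by
      rw [Subgroup.orderOf_coe, Subgroup.orderOf_coe, hx]
    have h1 := hS.free (k := 1) (by rw [pow_one, ← hord]; exact pow_orderOf_eq_one _) hfx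
    rw [h1, orderOf_one] at hord
    exact hS.prime.one_lt.ne hord
  refine eq_of_smul_eq_smul (α := Y) fun y => ?_
  rw [one_smul]
  have htr : IsPretransitive ↥(kerW M W) ↥(hS.fibre (β y)) := ⟨fun u v => by
    obtain ⟨x, hx, he⟩ := hD.transQ hS u v (show β (u : Y) = β (v : Y) by rw [u.2, v.2])
    exact ⟨⟨x, (Subgroup.zpowers_le.mpr hD.qK) hx⟩, Subtype.ext he⟩⟩
  let y' : ↥(hS.fibre (β y)) := ⟨y, rfl⟩
  have hblock := IsBlock.orbit_of_normal (G := ↥(kerW M W)) (N := L) y'
  have hdvd := hblock.ncard_dvd_card ⟨y', mem_orbit_self y'⟩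
  rw [hS.card_fibre] at hdvd
  rcases (Nat.dvd_prime hS.prime).mp hdvd with h1 | hp
  · obtain ⟨z, hz⟩ := Set.ncard_eq_one.mp h1
    have ha : (⟨⟨k, hk⟩, hkL⟩ : L) • y' = y' := by
      have e1 : (⟨⟨k, hk⟩, hkL⟩ : L) • y' ∈ orbit L y' := mem_orbit _ _
      have e2 : y' ∈ orbit L y' := mem_orbit_self _
      rw [hz, Set.mem_singleton_iff] at e1 e2
      rw [e1, ← e2]
    exact congrArg Subtype.val ha
  · exfalso
    refine hLcop ?_
    have h := Nat.card_congr (orbitProdStabilizerEquivGroup L y')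
    rw [Nat.card_prod, Nat.card_coe_set_eq, hp] at h
    exact Dvd.intro _ h

theorem cent_fix (hD : SylData p P q W) (hS : Setup p (M := M) β b) {k : M} (hk : k ∈ kerW M W)
    (hc : Commute k q) {y : Y} (hy : k • y = y) : k = 1 := by
  refine hD.eq_one_of_fix_fibre hS hk (β y) fun z hz => ?_
  obtain ⟨x, hx, rfl⟩ := hD.transQ hS y z hz.symm
  obtain ⟨i, rfl⟩ := hx
  show k • q ^ i • y = q ^ i • y
  rw [← mul_smul, (hc.zpow_right i).eq, mul_smul, hy]

theorem cent_kerW (hD : SylData p P q W) (hS : Setup p (M := M) β b) {k : M} (hk : k ∈ kerW M W)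
    (hc : Commute k q) : k ∈ Subgroup.zpowers q := by
  obtain ⟨x, hx, he⟩ := hD.transQ hS b (k • b) (by rw [hS.equiv, mem_kerW.mp hk])
  have hxc : Commute x q := by
    obtain ⟨i, rfl⟩ := hx
    exact (Commute.refl q).zpow_left i
  have h := hD.cent_fix hS ((kerW M W).mul_mem ((kerW M W).inv_mem
    ((Subgroup.zpowers_le.mpr hD.qK) hx)) hk) (hxc.inv_left.mul_left hc)
    (show (x⁻¹ * k) • b = b by rw [mul_smul, ← he, inv_smul_smul])
  rwa [← inv_mul_eq_one.mp h]

end SylData

end Cfsg.Agent.Lib.DoublyPrimSq
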