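import Cfsg.Agent.Lib.DoublyPrimSq.Count
import Cfsg.Agent.Lib.DoublyPrimSq.Local

/-!
From a doubly transitive group of degree `p ^ 2 + 1` to the local setting.
-/

set_option autoImplicit false
set_option linter.unusedSectionVars false

namespace Cfsg.Agent.Lib.DoublyPrimSq

open MulAction
open scoped Classical

variable {G Ω : Type*} [Group G] [Finite G] [Fintype Ω] [MulAction G Ω] [FaithfulSMul G Ω] {p : ℕ}

theorem stab_faithful (a : Ω) :
    FaithfulSMul ↥(stabilizer G a) ↥(SubMulAction.ofStabilizer G a) := ⟨fun {g g'} h => Subtype.ext (by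
  refine eq_of_smul_eq_smul (α := Ω) fun x => ?_
  by_cases hx : x = a
  · rw [hx, mem_stabilizer_iff.mp g.2, mem_stabilizer_iff.mp g'.2]
  · exact congrArg Subtype.val (h (⟨x, hx⟩ : ↥(SubMulAction.ofStabilizer G a))))⟩

theorem card_ofStabilizer (a : Ω) (n : ℕ) (hΩ : Fintype.card Ω = n + 1) :
    Nat.card ↥(SubMulAction.ofStabilizer G a) = n := by
  have e : Nat.card {x : Ω // x ≠ a} = n := by
    rw [Nat.card_eq_fintype_card, Fintype.card_subtype_compl, Fintype.card_subtype_eq, hΩ,
      Nat.add_sub_cancel]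
  exact e

theorem ofStabilizer_trans (h2 : IsMultiplyPretransitive G Ω 2) (a : Ω) :
    IsPretransitive ↥(stabilizer G a) ↥(SubMulAction.ofStabilizer G a) := ⟨fun x y => by
  obtain ⟨g, hga, hgx⟩ := MulAction.is_two_pretransitive_iff.mp h2
    (show a ≠ (x : Ω) from fun e => x.2 e.symm) (show a ≠ (y : Ω) from fun e => y.2 e.symm)
  exact ⟨⟨g, hga⟩, Subtype.ext hgx⟩⟩

/-- An element of `p`-power order fixing a point of an invariant set of `p` points fixes the set. -/
theorem fix_all {M Z : Type*} [Group M] [Finite M] [MulAction M Z] [Finite Z] (hp : p.Prime) {x : M}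
    {k : ℕ} (hx : x ^ (p ^ k) = 1) {S : Set Z} (hinv : ∀ z ∈ S, x • z ∈ S) (hcard : S.ncard ≤ p)
    {y : Z} (hy : y ∈ S) (hfix : x • y = y) {z : Z} (hz : z ∈ S) : x • z = z := by
  by_contra hne
  have hd : Nat.card (orbit (Subgroup.zpowers x) z) ∣ p ^ k := by
    have h1 := Nat.card_congr (orbitProdStabilizerEquivGroup (Subgroup.zpowers x) z)
    rw [Nat.card_prod] at h1
    refine (Dvd.intro _ h1).trans ?_
    rw [Nat.card_zpowers]
    exact orderOf_dvd_of_pow_eq_one hx
  have hsub : orbit (Subgroup.zpowers x) z ⊆ S \ {y} := by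
    rintro w ⟨⟨u, hu⟩, rfl⟩
    obtain ⟨n, rfl⟩ := mem_powers_iff_mem_zpowers.mpr hu
    have key : ∀ n : ℕ, x ^ n • z ∈ S ∧ x ^ n • z ≠ y := by
      intro n
      induction n with
      | zero =>
        refine ⟨by simpa using hz, fun e => hne ?_⟩
        rw [pow_zero, one_smul] at e
        rw [e, hfix]
      | succ n ih =>
        rw [pow_succ', mul_smul]
        exact ⟨hinv _ ih.1, fun e => ih.2 (MulAction.injective x (e.trans hfix.symm))⟩
    exact key n
  have hle := Set.ncard_le_ncard hsub (Set.toFinite _)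
  rw [Set.ncard_diff_singleton_of_mem hy, ← Nat.card_coe_set_eq] at hle
  obtain ⟨i, -, hi⟩ := (Nat.dvd_prime_pow hp).mp hd
  rcases i with _ | i
  · rw [pow_zero] at hi
    have h1 := (Nat.card_eq_one_iff_unique.mp hi).1
    exact hne (congrArg Subtype.val (h1.elim
      (⟨x • z, ⟨⟨x, Subgroup.mem_zpowers x⟩, rfl⟩⟩ : orbit (Subgroup.zpowers x) z)
      ⟨z, mem_orbit_self _⟩))
  · have := Nat.le_self_pow (show i + 1 ≠ 0 by omega) p
    have := hp.pos
    omega

/-- A two-point stabiliser has order prime to `p`. -/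
theorem step_one (hp : p.Prime) (hΩ : Fintype.card Ω = p ^ 2 + 1)
    (h2 : IsMultiplyPretransitive G Ω 2) (a : Ω) {W : Type*} [MulAction ↥(stabilizer G a) W] [Finite W]
    (β : ↥(SubMulAction.ofStabilizer G a) → W) (b : ↥(SubMulAction.ofStabilizer G a))
    (hW : Nat.card W = p) (heq : ∀ (m : ↥(stabilizer G a)) y, β (m • y) = m • β y)
    (hfib : ∀ w, Nat.card {y // β y = w} = p) :
    ¬ p ∣ Nat.card (stabilizer ↥(stabilizer G a) b) := by
  intro hdiv
  have := Fact.mk hp
  have := Fintype.ofFinite G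
  have := Fintype.ofFinite W
  set T : Finset G := Finset.univ.filter
    (fun g : G => g • a = a ∧ g • (b : Ω) = b ∧ ∃ k : ℕ, g ^ (p ^ k) = 1) with hT
  have hmemT : ∀ g, g ∈ T ↔ g • a = a ∧ g • (b : Ω) = b ∧ ∃ k : ℕ, g ^ (p ^ k) = 1 := fun g => by
    simp [hT]
  set F : Finset Ω := Finset.univ.filter (fun x => ∀ g ∈ T, g • x = x) with hF
  have hmemF : ∀ x, x ∈ F ↔ ∀ g ∈ T, g • x = x := fun x => by simp [hF]
  have haF : a ∈ F := (hmemF a).mpr fun g hg => ((hmemT g).mp hg).1
  have hbF : (b : Ω) ∈ F := (hmemF b).mpr fun g hg => ((hmemT g).mp hg).2.1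
  have hab : a ≠ (b : Ω) := fun e => b.2 e.symm
  -- the only translate through `a` and `b` is `F`
  have hm : (through G F a (b : Ω)).card = 1 := by
    rw [Finset.card_eq_one]
    refine ⟨F, Finset.eq_singleton_iff_unique_mem.mpr
      ⟨mem_through.mpr ⟨self_mem_translates F, haF, hbF⟩, ?_⟩⟩
    intro L hL
    obtain ⟨hL, haL, hbL⟩ := mem_through.mp hL
    obtain ⟨g, rfl⟩ := exists_of_mem_translates hL
    rw [mem_image_smul] at haL hbL
    have hsub : T.image (fun t => g * t * g⁻¹) ⊆ T := by
      intro u hu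
      obtain ⟨t, ht, rfl⟩ := Finset.mem_image.mp hu
      obtain ⟨k, hk⟩ := ((hmemT t).mp ht).2.2
      refine (hmemT _).mpr ⟨?_, ?_, k, by rw [conj_pow, hk, mul_one, mul_inv_cancel]⟩
      · rw [mul_smul, mul_smul, (hmemF _).mp haL t ht, smul_inv_smul]
      · rw [mul_smul, mul_smul, (hmemF _).mp hbL t ht, smul_inv_smul]
    have hTeq : T.image (fun t => g * t * g⁻¹) = T := Finset.eq_of_subset_of_card_le hsub
      (le_of_eq (Finset.card_image_of_injective _
        (fun t t' h => mul_left_cancel (mul_right_cancel h))).symm)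
    ext x
    rw [mem_image_smul, hmemF, hmemF]
    constructor
    · intro h u hu
      rw [← hTeq] at hu
      obtain ⟨t, ht, rfl⟩ := Finset.mem_image.mp hu
      rw [mul_smul, mul_smul, h t ht, smul_inv_smul]
    · intro h t ht
      have h1 := h _ (hsub (Finset.mem_image_of_mem _ ht))
      rwa [mul_smul, mul_smul, ← eq_inv_smul_iff] at h1
  -- the fixed set is not everything
  have hFu : F ≠ Finset.univ := by
    obtain ⟨x, hx⟩ := exists_prime_orderOf_dvd_card' p hdiv
    intro h
    have hxT : ((x : ↥(stabilizer G a)) : G) ∈ T := by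
      refine (hmemT _).mpr ⟨(x : ↥(stabilizer G a)).2, congrArg Subtype.val x.2, 1, ?_⟩
      rw [pow_one]
      exact orderOf_dvd_iff_pow_eq_one.mp (by rw [Subgroup.orderOf_coe, Subgroup.orderOf_coe, hx])
    have h1 : ((x : ↥(stabilizer G a)) : G) = 1 := eq_of_smul_eq_smul (α := Ω) fun y => by
      rw [one_smul]; exact (hmemF y).mp (h ▸ Finset.mem_univ y) _ hxT
    have h2' : orderOf ((x : ↥(stabilizer G a)) : G) = p := by
      rw [Subgroup.orderOf_coe, Subgroup.orderOf_coe, hx]
    rw [h1, orderOf_one] at h2'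
    exact hp.one_lt.ne h2'
  -- fixed points outside `a` fill blocks
  set F' : Finset ↥(SubMulAction.ofStabilizer G a) := Finset.univ.filter (fun y => (y : Ω) ∈ F) with hF'
  have hblock : ∀ y z : ↥(SubMulAction.ofStabilizer G a), y ∈ F' → β z = β y → z ∈ F' := by
    intro y z hy hzy
    refine Finset.mem_filter.mpr ⟨Finset.mem_univ _, (hmemF _).mpr fun g hg => ?_⟩
    obtain ⟨hga, hgb, k, hk⟩ := (hmemT g).mp hg
    let m : ↥(stabilizer G a) := ⟨g, hga⟩
    have hmk : m ^ (p ^ k) = 1 := Subtype.ext (by simpa [m] using hk)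
    have hmw : ∀ w, m • w = w := fun w =>
      fix_all hp hmk (S := Set.univ) (fun _ _ => trivial) (by rw [Set.ncard_univ, hW]) (y := β b) trivial
        (by rw [← heq, show m • b = b from Subtype.ext hgb]) (z := w) trivial
    have hz : m • z = z := fix_all hp hmk (S := {u | β u = β y})
      (fun u hu => by show β (m • u) = β y; rw [heq, hmw]; exact hu)
      (by rw [← Nat.card_coe_set_eq]; exact le_of_eq (hfib (β y))) (y := y) rfl
      (Subtype.ext ((hmemF _).mp (Finset.mem_filter.mp hy).2 g hg)) hzy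
    exact congrArg Subtype.val hz
  set j := (F'.image β).card with hj
  have hF'card : F'.card = j * p := by
    rw [Finset.card_eq_sum_card_image β F']
    rw [Finset.sum_const_nat fun w hw => ?_]
    obtain ⟨y, hy, rfl⟩ := Finset.mem_image.mp hw
    rw [← hfib (β y), Nat.card_eq_fintype_card, ← Fintype.card_coe]
    refine Fintype.card_congr (Equiv.subtypeEquivRight fun z => ?_)
    rw [Finset.mem_filter]
    exact ⟨fun h => h.2, fun h => ⟨hblock y z hy h, h⟩⟩
  have hFcard : F.card = j * p + 1 := by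
    rw [← hF'card, ← Finset.card_erase_add_one haF]
    congr 1
    symm
    refine Finset.card_bij (fun y _ => (y : Ω)) (fun y hy => ?_) (fun y _ z _ h => Subtype.ext h)
      fun x hx => ?_
    · exact Finset.mem_erase.mpr ⟨y.2, (Finset.mem_filter.mp hy).2⟩
    · obtain ⟨hxa, hxF⟩ := Finset.mem_erase.mp hx
      exact ⟨⟨x, hxa⟩, Finset.mem_filter.mpr ⟨Finset.mem_univ _, hxF⟩, rfl⟩
  have h1 := one_count h2 F hab
  rw [hm, hFcard, hΩ, Nat.add_sub_cancel, Nat.add_sub_cancel, mul_one, pow_two] at h1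
  have hjp : j ∣ p := ⟨((translates G F).filter fun L => a ∈ L).card,
    Nat.eq_of_mul_eq_mul_right hp.pos (by rw [← h1]; ring)⟩
  rcases (Nat.dvd_prime hp).mp hjp with hj1 | hjp
  · have h3 := two_count h2 F hab
    rw [hm, hFcard, hj1, one_mul, hΩ, Nat.add_sub_cancel, Nat.add_sub_cancel] at h3
    have := Nat.le_of_dvd (by omega) (dvd_two_mul hp h3)
    have := hp.two_le
    omega
  · refine hFu (Finset.eq_univ_of_card F ?_)
    rw [hFcard, hjp, hΩ, pow_two]

/-- A set of `p` points fixed by a subgroup with at most two candidates forces `p ≤ 3`. -/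
theorem no_pair (hp : p.Prime) (hΩ : Fintype.card Ω = p ^ 2 + 1)
    (h2 : IsMultiplyPretransitive G Ω 2) (a : Ω) (b : ↥(SubMulAction.ofStabilizer G a))
    (R : Subgroup ↥(stabilizer G a)) (hR : R ≤ stabilizer ↥(stabilizer G a) b)
    (hfix : (fixSet ↥(SubMulAction.ofStabilizer G a) R).ncard = p)
    (F₁ F₂ : Set ↥(SubMulAction.ofStabilizer G a))
    (hall : ∀ R' : Subgroup ↥(stabilizer G a), R' ≤ stabilizer ↥(stabilizer G a) b →
      Nat.card R' = Nat.card R → (fixSet ↥(SubMulAction.ofStabilizer G a) R').ncard = p →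
      fixSet ↥(SubMulAction.ofStabilizer G a) R' = F₁ ∨
        fixSet ↥(SubMulAction.ofStabilizer G a) R' = F₂) : p ≤ 3 := by
  let mk : Set ↥(SubMulAction.ofStabilizer G a) → Finset Ω := fun S =>
    insert a (S.toFinset.image Subtype.val)
  have hcard_mk : ∀ S, (mk S).card = S.ncard + 1 := by
    intro S
    rw [Finset.card_insert_of_notMem, Finset.card_image_of_injective _ Subtype.val_injective,
      ← Set.ncard_eq_toFinset_card']
    intro h
    obtain ⟨y, -, hy⟩ := Finset.mem_image.mp h
    exact y.2 hy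
  set F := mk (fixSet ↥(SubMulAction.ofStabilizer G a) R) with hF
  have hmem : ∀ x, x ∈ F ↔ ∀ r ∈ R, (r : G) • x = x := by
    intro x
    simp only [F, mk, Finset.mem_insert, Finset.mem_image, Set.mem_toFinset]
    constructor
    · rintro (rfl | ⟨y, hy, rfl⟩) r hr
      · exact r.2
      · exact congrArg Subtype.val (hy r hr)
    · intro h
      by_cases hx : x = a
      · exact Or.inl hx
      · exact Or.inr ⟨⟨x, hx⟩, fun r hr => Subtype.ext (h r hr), rfl⟩
  have hFcard : F.card = p + 1 := by rw [hF, hcard_mk, hfix]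
  have hab : a ≠ (b : Ω) := fun e => b.2 e.symm
  have hsub : through G F a (b : Ω) ⊆ {mk F₁, mk F₂} := by
    intro L hL
    obtain ⟨hL, haL, hbL⟩ := mem_through.mp hL
    have hLc := card_of_mem_translates hL
    obtain ⟨g, rfl⟩ := exists_of_mem_translates hL
    rw [mem_image_smul] at haL hbL
    have hga : ∀ r : R, g * ((r : ↥(stabilizer G a)) : G) * g⁻¹ ∈ stabilizer G a := fun r => by
      rw [mem_stabilizer_iff, mul_smul, mul_smul, (hmem _).mp haL r r.2, smul_inv_smul]
    let f : R →* ↥(stabilizer G a) :=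
      { toFun := fun r => ⟨g * ((r : ↥(stabilizer G a)) : G) * g⁻¹, hga r⟩
        map_one' := Subtype.ext (by simp)
        map_mul' := fun r s => Subtype.ext (by simp [mul_assoc]) }
    have hR'b : f.range ≤ stabilizer ↥(stabilizer G a) b := by
      rintro _ ⟨r, rfl⟩
      refine Subtype.ext ?_
      show (g * ((r : ↥(stabilizer G a)) : G) * g⁻¹) • (b : Ω) = b
      rw [mul_smul, mul_smul, (hmem _).mp hbL r r.2, smul_inv_smul]
    have hcard : Nat.card f.range = Nat.card R := by
      refine (Nat.card_congr (Equiv.ofBijective f.rangeRestrict ⟨?_, f.rangeRestrict_surjective⟩)).symm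
      intro r s h
      have h1 : g * ((r : ↥(stabilizer G a)) : G) * g⁻¹ = g * ((s : ↥(stabilizer G a)) : G) * g⁻¹ :=
        congrArg (fun z : f.range => ((z : ↥(stabilizer G a)) : G)) h
      exact Subtype.ext (Subtype.ext (mul_left_cancel (mul_right_cancel h1)))
    have himg : F.image (g • ·) = mk (fixSet ↥(SubMulAction.ofStabilizer G a) f.range) := by
      ext x
      simp only [mk, Finset.mem_insert, Finset.mem_image (f := Subtype.val), Set.mem_toFinset]
      rw [mem_image_smul]
      constructor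
      · intro hx
        by_cases hxa : x = a
        · exact Or.inl hxa
        · refine Or.inr ⟨⟨x, hxa⟩, ?_, rfl⟩
          rintro _ ⟨r, rfl⟩
          refine Subtype.ext ?_
          show (g * ((r : ↥(stabilizer G a)) : G) * g⁻¹) • x = x
          rw [mul_smul, mul_smul, (hmem _).mp hx r r.2, smul_inv_smul]
      · rintro (rfl | ⟨y, hy, rfl⟩)
        · exact haL
        · refine (hmem _).mpr fun r hr => ?_
          have h1 : (g * (r : G) * g⁻¹) • (y : Ω) = y :=
            congrArg Subtype.val (hy (f ⟨r, hr⟩) ⟨⟨r, hr⟩, rfl⟩)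
          rwa [mul_smul, mul_smul, ← eq_inv_smul_iff] at h1
    rw [himg] at hLc ⊢
    rw [hcard_mk, hFcard] at hLc
    rcases hall f.range hR'b hcard (by omega) with h | h <;> rw [h] <;> simp
  have hm2 : (through G F a (b : Ω)).card ≤ 2 := (Finset.card_le_card hsub).trans Finset.card_le_two
  have hm1 : 0 < (through G F a (b : Ω)).card := Finset.card_pos.mpr
    ⟨F, mem_through.mpr ⟨self_mem_translates F,
      (hmem a).mpr fun r _ => r.2, (hmem b).mpr fun r hr => congrArg Subtype.val (hR hr)⟩⟩
  have h3 := two_count h2 F hab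
  rw [hFcard, hΩ, Nat.add_sub_cancel, Nat.add_sub_cancel] at h3
  have := Nat.le_of_dvd (by omega) (dvd_two_mul hp h3)
  omega

/-- An involution of a group of even permutations fixes two points modulo four. -/
theorem fixed_mod_four {Z : Type*} [Fintype Z] [MulAction G Z] [FaithfulSMul G Z] {t : G}
    (ht : t * t = 1) (ht1 : t ≠ 1) (hsign : Equiv.Perm.sign (MulAction.toPerm t : Equiv.Perm Z) = 1) :
    4 ∣ Fintype.card Z - (Finset.univ.filter fun x : Z => t • x = x).card := by
  set σ : Equiv.Perm Z := MulAction.toPerm t with hσ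
  have hord : orderOf σ = 2 := by
    refine orderOf_eq_prime ?_ fun h => ht1 ?_
    · ext x
      rw [pow_two, Equiv.Perm.mul_apply, hσ, MulAction.toPerm_apply, MulAction.toPerm_apply, ← mul_smul,
        ht, one_smul, Equiv.Perm.one_apply]
    · refine eq_of_smul_eq_smul (α := Z) fun x => ?_
      rw [one_smul]
      exact Equiv.ext_iff.mp h x
  obtain ⟨m, hm⟩ := Equiv.Perm.cycleType_prime_order (σ := σ) (hord ▸ Nat.prime_two)
  rw [hord] at hm
  rw [Equiv.Perm.sign_of_cycleType, hm, Multiset.sum_replicate, Multiset.card_replicate, smul_eq_mul]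
    at hsign
  have heven : Even ((m + 1) * 2 + (m + 1)) := (neg_one_pow_eq_one_iff_even (by decide)).mp hsign
  have hsupp : σ.support.card = (m + 1) * 2 := by
    rw [← Equiv.Perm.sum_cycleType, hm, Multiset.sum_replicate, smul_eq_mul]
  have e : Fintype.card Z - (Finset.univ.filter fun x : Z => t • x = x).card = σ.support.card := by
    rw [← Finset.card_compl]
    congr 1
    ext x
    simp [hσ]
  rw [e, hsupp]
  obtain ⟨k, hk⟩ := heven
  omega

end Cfsg.Agent.Lib.DoublyPrimSq
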